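import Cfsg.Agent.Lib.T2.Des

/-! Counting lemmas for subgroups normalised by a transitive subgroup. -/

set_option autoImplicit false

namespace Cfsg.Agent.T2X

open MulAction Finset T2

variable {G : Type*} [Group G] (Ω : Type*) [MulAction G Ω]

/-- `B` is transitive -/
def Trs (B : Subgroup G) : Prop := ∀ a b : Ω, ∃ g ∈ B, g • a = b

/-- `B` normalises `R` -/
def Nz (B R : Subgroup G) : Prop := ∀ b ∈ B, ∀ r ∈ R, b * r * b⁻¹ ∈ R

/-- number of fixed points -/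
noncomputable def fx (x : G) : ℕ := Nat.card {a : Ω // x • a = a}

/-- `R` acts semiregularly -/
def Semi (R : Subgroup G) : Prop := ∀ x ∈ R, ∀ a : Ω, x • a = a → x = 1

/-- elements preserving all orbits of `R` -/
def MR (R : Subgroup G) : Subgroup G where
  carrier := {g | ∀ a : Ω, ∃ r ∈ R, g • a = r • a}
  one_mem' a := ⟨1, one_mem _, rfl⟩
  mul_mem' {g h} hg hh a := by
    obtain ⟨r, hr, e⟩ := hg (h • a)
    obtain ⟨s, hs, e'⟩ := hh a
    exact ⟨r * s, mul_mem hr hs, by rw [mul_smul, e, e', mul_smul]⟩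
  inv_mem' {g} hg a := by
    obtain ⟨r, hr, e⟩ := hg (g⁻¹ • a)
    rw [smul_inv_smul] at e
    exact ⟨r⁻¹, inv_mem hr, by rw [eq_inv_smul_iff, ← e]⟩

variable {Ω}

/-- order of the point stabiliser in `R` -/
noncomputable def st (R : Subgroup G) (a : Ω) : ℕ := Nat.card ↥(R ⊓ stabilizer G a)

/-- length of the orbit of `R` -/
noncomputable def ob (R : Subgroup G) (a : Ω) : ℕ := (orbit R a).ncard

variable {B R R' U X Z Q P : Subgroup G} {a b : Ω} {x y g : G}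

theorem Trs.mono (h : Trs Ω B) (h' : B ≤ P) : Trs Ω P := fun a b =>
  let ⟨g, hg, e⟩ := h a b; ⟨g, h' hg, e⟩

theorem Nz.mono (h : Nz B R) (h' : P ≤ B) : Nz P R := fun b hb => h b (h' hb)

theorem Nz.inv (h : Nz B R) {b : G} (hb : b ∈ B) {r : G} (hr : r ∈ R) : b⁻¹ * r * b ∈ R := by
  simpa using h _ (inv_mem hb) r hr

theorem nz_of_le (h : B ≤ Subgroup.normalizer (R : Set G)) : Nz B R := fun _ hb _ hr =>
  (Subgroup.mem_normalizer_iff.1 (h hb) _).1 hr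

theorem Nz.le (h : Nz B R) : B ≤ Subgroup.normalizer (R : Set G) := fun b hb =>
  Subgroup.mem_normalizer_iff.2 fun r => ⟨h b hb r, fun e => by simpa [mul_assoc] using h.inv hb e⟩

theorem nz_self (R : Subgroup G) : Nz R R := fun _ hb _ hr => mul_mem (mul_mem hb hr) (inv_mem hb)

theorem Nz.sup (h : Nz B R) (h' : Nz P R) : Nz (B ⊔ P) R := nz_of_le (sup_le h.le h'.le)

theorem ob_mul_st (R : Subgroup G) (a : Ω) : ob R a * st R a = Nat.card R := ncard_orbit_mul R a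

theorem st_pos [Finite G] (R : Subgroup G) (a : Ω) : 0 < st R a := Nat.card_pos

theorem ob_pos [Finite G] (R : Subgroup G) (a : Ω) : 0 < ob R a :=
  Nat.pos_of_mul_pos_right (ob_mul_st R a ▸ Nat.card_pos)

theorem st_dvd (R : Subgroup G) (a : Ω) : st R a ∣ Nat.card R := Subgroup.card_dvd_of_le inf_le_left

theorem ob_dvd (R : Subgroup G) (a : Ω) : ob R a ∣ Nat.card R := Dvd.intro _ (ob_mul_st R a)

theorem st_le [Finite G] (h : Nz B R) (hg : g ∈ B) (a : Ω) : st R a ≤ st R (g • a) :=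
  Nat.card_le_card_of_injective (fun x => ⟨g * x * g⁻¹, h g hg _ x.2.1, by
    have : x.1 • a = a := x.2.2
    simp [mul_smul, this]⟩) fun x y e => Subtype.ext (by simpa using congrArg Subtype.val e)

theorem st_eq [Finite G] (h : Nz B R) (hB : Trs Ω B) (a b : Ω) : st R a = st R b := by
  obtain ⟨g, hg, rfl⟩ := hB a b
  refine le_antisymm (st_le h hg a) ?_
  simpa using st_le h (inv_mem hg) (g • a)

theorem ob_eq [Finite G] (h : Nz B R) (hB : Trs Ω B) (a b : Ω) : ob R a = ob R b :=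
  Nat.eq_of_mul_eq_mul_right (st_pos R a) (by rw [ob_mul_st, st_eq h hB a b, ob_mul_st])

theorem ob_dvd_card [Finite G] [Finite Ω] (h : Nz B R) (hB : Trs Ω B) (a : Ω) : ob R a ∣ Nat.card Ω :=
  dvd_card_of_orbits (R := R) fun b => (ob_eq h hB a b).dvd

theorem trs_iff_ob [Finite Ω] (a : Ω) : Trs Ω R ↔ Nat.card Ω ≤ ob R a := by
  constructor
  · intro h
    rw [ob, Set.eq_univ_of_forall (s := orbit R a) fun b => let ⟨g, hg, e⟩ := h a b; ⟨⟨g, hg⟩, e⟩,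
      Set.ncard_univ]
  · intro h b c
    have h1 : orbit R a = Set.univ := Set.eq_of_subset_of_ncard_le (Set.subset_univ _) (by rwa [Set.ncard_univ])
    obtain ⟨r, hr⟩ : b ∈ orbit R a := h1 ▸ Set.mem_univ b
    obtain ⟨s, hs⟩ : c ∈ orbit R a := h1 ▸ Set.mem_univ c
    exact ⟨s * r⁻¹, mul_mem s.2 (inv_mem r.2), by
      rw [← hr, ← hs, mul_smul]; exact congrArg _ (inv_smul_smul r.1 a)⟩

theorem ob_le [Finite Ω] (R : Subgroup G) (a : Ω) : ob R a ≤ Nat.card Ω :=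
  Set.ncard_univ Ω ▸ Set.ncard_le_ncard (Set.subset_univ _)

theorem Trs.ob_eq [Finite Ω] (h : Trs Ω R) (a : Ω) : ob R a = Nat.card Ω :=
  le_antisymm (ob_le R a) ((trs_iff_ob a).1 h)

theorem st_eq_one_iff : st R a = 1 ↔ ∀ x ∈ R, x • a = a → x = 1 := by
  rw [st, Subgroup.card_eq_one, eq_bot_iff]
  exact ⟨fun h x h1 h2 => h (⟨h1, h2⟩ : x ∈ R ⊓ stabilizer G a), fun h x hx => h x hx.1 hx.2⟩

theorem Semi.st (h : Semi Ω R) (a : Ω) : st R a = 1 := st_eq_one_iff.2 fun x hx => h x hx a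

theorem Semi.ob (h : Semi Ω R) (a : Ω) : ob R a = Nat.card R := by
  rw [← ob_mul_st R a, h.st, mul_one]

theorem Semi.mono (h : Semi Ω R) (h' : X ≤ R) : Semi Ω X := fun x hx => h x (h' hx)

theorem fx_eq_zero [Finite Ω] : fx Ω x = 0 ↔ ∀ a : Ω, x • a ≠ a := by
  rw [fx, Nat.card_eq_zero, or_iff_left (not_infinite_iff_finite.2 inferInstance), isEmpty_subtype]

theorem fx_conj (h : IsConj x y) : fx Ω x = fx Ω y := by
  obtain ⟨g, rfl⟩ := isConj_iff.1 h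
  exact Nat.card_congr ((MulAction.toPerm g).subtypeEquiv fun a => by simp [mul_smul])

theorem fx_one : fx Ω (1 : G) = Nat.card Ω := by simp [fx]

theorem eq_one_of_fx [Finite Ω] [FaithfulSMul G Ω] (h : Nat.card Ω ≤ fx Ω x) : x = 1 := by
  have h1 : {a : Ω | x • a = a} = Set.univ :=
    Set.eq_of_subset_of_ncard_le (Set.subset_univ _) (by rwa [Set.ncard_univ])
  exact eq_of_smul_eq_smul fun a : Ω => by
    rw [one_smul]; exact (h1 ▸ Set.mem_univ a : a ∈ {a : Ω | x • a = a})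

theorem semi_of_fx [Finite Ω] (h : ∀ x ∈ R, x ≠ 1 → fx Ω x = 0) : Semi Ω R := fun x hx a e =>
  by_contra fun h1 => fx_eq_zero.1 (h x hx h1) a e

theorem Semi.fx [Finite Ω] (h : Semi Ω R) (hx : x ∈ R) (h1 : x ≠ 1) : fx Ω x = 0 :=
  fx_eq_zero.2 fun a e => h1 (h x hx a e)

theorem sum_fix [Finite G] [Finite Ω] [Fintype R] (h : Nz B R) (hB : Trs Ω B) (a : Ω) :
    Nat.card Ω * st R a = ∑ x : R, fx Ω x.1 := by
  classical
  have := Fintype.ofFinite Ω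
  have h1 : ∀ x : R, fx Ω x.1 = ∑ b : Ω, if x.1 • b = b then 1 else 0 := fun x => by
    rw [fx, Nat.card_eq_fintype_card, Fintype.card_subtype, card_filter]
  have h2 : ∀ b : Ω, (∑ x : R, if x.1 • b = b then 1 else 0) = st R a := fun b => by
    rw [st_eq h hB a b, ← card_filter, ← Fintype.card_subtype, ← Nat.card_eq_fintype_card]
    exact Nat.card_congr ⟨fun x => ⟨x.1.1, x.1.2, x.2⟩, fun x => ⟨⟨x.1, x.2.1⟩, x.2.2⟩, fun _ => rfl, fun _ => rfl⟩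
  simp only [h1]
  rw [sum_comm]
  simp only [h2]
  simp

/-- all elements of `R` outside `M` act without fixed points, those in `M` are conjugate to `y` -/
theorem count_cls [Finite G] [Finite Ω] (h : Nz B R) (hB : Trs Ω B) (a : Ω) {M : Set G} (h1 : (1 : G) ∉ M)
    (h2 : ∀ x ∈ R, x ∈ M → IsConj x y) (h3 : ∀ x ∈ R, x ≠ 1 → x ∉ M → fx Ω x = 0) :
    Nat.card Ω * st R a = Nat.card Ω + ((R : Set G) ∩ M).ncard * fx Ω y := by
  classical
  have := Fintype.ofFinite R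
  have h4 : ∀ x : R, fx Ω x.1 = (if x = 1 then Nat.card Ω else 0) + if x.1 ∈ M then fx Ω y else 0 := fun x => by
    by_cases e : x = 1
    · rw [e, if_pos rfl, if_neg (show ((1 : R) : G) ∉ M from h1), add_zero]; exact fx_one
    · rw [if_neg e, zero_add]
      split_ifs with e'
      · exact fx_conj (h2 _ x.2 e')
      · exact h3 _ x.2 (fun e1 => e (Subtype.ext e1)) e'
  rw [sum_fix h hB a]
  simp only [h4]
  rw [sum_add_distrib, sum_ite_eq', if_pos (mem_univ _), ← sum_filter, sum_const, smul_eq_mul]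
  congr 2
  rw [← Set.ncard_coe_finset, ← Set.ncard_image_of_injective _ Subtype.val_injective]
  congr 1
  ext x
  simp [and_comm]

theorem count_one [Finite G] [Finite Ω] (h : Nz B R) (hB : Trs Ω B) (a : Ω)
    (h2 : ∀ x ∈ R, x ≠ 1 → IsConj x y) :
    Nat.card Ω * st R a = Nat.card Ω + (Nat.card R - 1) * fx Ω y := by
  rw [count_cls h hB a (M := {1}ᶜ) (by simp) h2 fun x _ h1 h3 => absurd h1 h3, ← Set.sdiff_eq,
    Set.ncard_sdiff_singleton_of_mem (one_mem R)]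
  rfl

theorem pow_line {p q s t : ℕ} (hp : p.Prime) {i j k : ℕ} (hq : q = p ^ k) (hs : s = p ^ i) (ht : t = p ^ j)
    (hsq : s ∣ q) (e : t + q + 1 = (q + 1) * s + 1) : s = 1 ∨ s = q := by
  by_contra hc
  rw [not_or] at hc
  obtain ⟨u, hu⟩ := hsq
  have hs0 : 0 < s := hs ▸ pow_pos hp.pos i
  have h1 : p ∣ u := by
    rcases (Nat.dvd_prime_pow hp).1 (hq ▸ Dvd.intro_left s hu.symm : u ∣ p ^ k) with ⟨_ | c, -, rfl⟩
    · exact absurd (by rw [hu]; simp) hc.2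
    · exact dvd_pow_self p (by omega)
  have h2 : 2 ≤ s := by omega
  obtain ⟨v, hv⟩ : u ∣ q := Dvd.intro_left s hu.symm
  have h3 : t = s * (u * (s - 1) + 1) := by
    obtain ⟨s, rfl⟩ := Nat.exists_eq_add_of_le' hs0
    rw [Nat.add_sub_cancel]
    rw [hu] at e
    nlinarith
  have h4 : u * (s - 1) + 1 ∣ p ^ j := ht ▸ Dvd.intro_left s h3.symm
  rcases (Nat.dvd_prime_pow hp).1 h4 with ⟨_ | c, -, h5⟩
  · have h6 : 0 < u := Nat.pos_of_ne_zero fun e => by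
      rw [e, mul_zero] at hu; exact (pow_pos hp.pos k).ne' (hq ▸ hu)
    have := Nat.mul_pos h6 (by omega : 0 < s - 1)
    rw [pow_zero] at h5
    omega
  · have h6 : p ∣ u * (s - 1) + 1 := h5 ▸ dvd_pow_self p (by omega)
    exact hp.one_lt.ne' (Nat.dvd_one.1 ((Nat.dvd_add_right (h1.mul_right _)).1 h6))

theorem st_pow [Finite G] {p : ℕ} [Fact p.Prime] (h : IsPGroup p R) (a : Ω) : ∃ i, st R a = p ^ i :=
  (h.to_le inf_le_left).exists_card_eq

theorem ob_pow [Finite G] {p : ℕ} [hp : Fact p.Prime] (h : IsPGroup p R) (a : Ω) : ∃ i, ob R a = p ^ i := by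
  obtain ⟨k, hk⟩ := h.exists_card_eq
  obtain ⟨i, -, e⟩ := (Nat.dvd_prime_pow hp.out).1 (hk ▸ ob_dvd R a)
  exact ⟨i, e⟩

/-- A class meeting two normalised subgroups of orders `q`, `q ^ 2` completely has no fixed points. -/
theorem fx_line [Finite G] [Finite Ω] [Nonempty Ω] [FaithfulSMul G Ω] {E : Subgroup G} {p q : ℕ} [hp : Fact p.Prime]
    (hB : Trs Ω B) (hZ : Nz B Z) (hE : Nz B E) (pZ : IsPGroup p Z) (pE : IsPGroup p E) (cZ : Nat.card Z = q)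
    (cE : Nat.card E = q ^ 2) (hq : 1 < q) (hy : y ≠ 1) (h1 : ∀ x ∈ Z, x ≠ 1 → IsConj x y)
    (h2 : ∀ x ∈ E, x ≠ 1 → IsConj x y) : fx Ω y = 0 := by
  obtain ⟨a⟩ := ‹Nonempty Ω›
  have e1 := count_one hZ hB a h1
  have e2 := count_one hE hB a h2
  obtain ⟨k, hk⟩ := pZ.exists_card_eq
  obtain ⟨i, hi⟩ := st_pow pZ a
  obtain ⟨j, hj⟩ := st_pow pE a
  have hn : 0 < Nat.card Ω := Nat.card_pos
  obtain ⟨q, rfl⟩ := Nat.exists_eq_add_of_le' hq.le
  rw [cZ, Nat.add_sub_cancel] at e1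
  rw [cE, show (q + 1) ^ 2 - 1 = (q + 2) * q by rw [Nat.sub_eq_of_eq_add]; ring] at e2
  rcases pow_line hp.out (cZ ▸ hk) hi hj (cZ ▸ st_dvd Z a)
    (Nat.eq_of_mul_eq_mul_left hn (by nlinarith)) with e | e
  · rw [e] at e1
    have : q * fx Ω y = 0 := by omega
    exact (Nat.mul_eq_zero.1 this).resolve_left (by omega)
  · rw [e] at e1
    refine absurd (eq_one_of_fx (Ω := Ω) (Nat.le_of_mul_le_mul_left (c := q) ?_ (by omega))) hy
    nlinarith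

/-- a subgroup meeting a semiregular subgroup -/
theorem st_mul_le [Finite G] (hX : Semi Ω X) (h : X ≤ R) (a : Ω) : st R a * Nat.card X ≤ Nat.card R := by
  rw [st, ← Nat.card_prod]
  refine Nat.card_le_card_of_injective (fun u => ⟨u.1.1 * u.2.1, mul_mem u.1.2.1 (h u.2.2)⟩) fun u v e => ?_
  have e1 : u.1.1 * u.2.1 = v.1.1 * v.2.1 := congrArg Subtype.val e
  have e2 : v.1.1⁻¹ * u.1.1 = v.2.1 * u.2.1⁻¹ := by
    rw [inv_mul_eq_iff_eq_mul, ← mul_assoc, ← e1, mul_inv_cancel_right]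
  have e3 := hX _ (mul_mem v.2.2 (inv_mem u.2.2)) a (e2 ▸ (mul_mem (inv_mem v.1.2) u.1.2).2)
  have e4 : u.2 = v.2 := Subtype.ext (mul_inv_eq_one.1 e3).symm
  rw [e4] at e1
  exact Prod.ext (Subtype.ext (mul_right_cancel e1)) e4

theorem trs_of_pow [Finite G] [Finite Ω] [Nonempty Ω] {p k : ℕ} (hp : p.Prime) (hB : Trs Ω B) (h : U ≤ B) {i : ℕ}
    (hi : Nat.card B = Nat.card U * i) (hpi : ¬ p ∣ i) (hn : Nat.card Ω = p ^ k) : Trs Ω U := by
  obtain ⟨a⟩ := ‹Nonempty Ω›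
  obtain ⟨j, hj⟩ : st U a ∣ st B a := Subgroup.card_dvd_of_le (inf_le_inf_right _ h)
  have h1 := ob_mul_st B a
  rw [hB.ob_eq, hi, ← ob_mul_st U a, hj] at h1
  have h2 : Nat.card Ω * j = ob U a * i := Nat.eq_of_mul_eq_mul_left (st_pos U a) (by nlinarith)
  refine (trs_iff_ob a).2 (Nat.le_of_dvd (ob_pos U a) (Nat.Coprime.dvd_of_dvd_mul_right (n := i) ?_ ⟨j, h2.symm⟩))
  exact hn ▸ Nat.Coprime.pow_left k ((Nat.Prime.coprime_iff_not_dvd hp).2 hpi)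

/-- The order of an isotropic subgroup of a Heisenberg group. -/
theorem heis_bound [Finite G] {A Z₀ : Subgroup G} (hA : A ≤ Q) (h0 : Z₀ ≤ Q) (hZ : Z ≤ Z₀) (hZ1 : Z ≠ ⊥)
    (hc : ∀ z ∈ Z₀, ∀ x ∈ Q, Commute z x) (hm : ∀ x ∈ Q, ∀ y ∈ Q, x * y * x⁻¹ * y⁻¹ ∈ Z)
    (hs : ∀ y ∈ Q, y ∉ Z₀ → ∀ z ∈ Z, ∃ x ∈ Q, z = x * y * x⁻¹ * y⁻¹) (hAZ : ∀ x ∈ A, x ∈ Z₀ → x = 1) :
    Nat.card A * Nat.card A * Nat.card Z₀ ≤ Nat.card Q := by
  classical
  let _ : CommGroup Z := { (inferInstance : Group Z) with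
    mul_comm := fun a b => Subtype.ext (hc _ (hZ a.2) _ (h0 (hZ b.2))) }
  obtain ⟨z, hz⟩ := (Subgroup.ne_bot_iff_exists_ne_one).1 hZ1
  have : NeZero (Monoid.exponent Z) := ⟨Monoid.exponent_ne_zero_of_finite⟩
  obtain ⟨χ, hχ⟩ := CommGroup.exists_apply_ne_one_of_hasEnoughRootsOfUnity Z ℂ hz
  let c : Q → Q → Z := fun x y => ⟨x * y * x.1⁻¹ * y.1⁻¹, hm _ x.2 _ y.2⟩
  have c1 : ∀ x x' y, c (x * x') y = c x y * c x' y := fun x x' y => Subtype.ext <| by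
    have := (hc _ (hZ (hm _ x'.2 _ y.2)) _ x.2).eq
    calc _ = x * (x' * y * x'.1⁻¹ * y.1⁻¹) * (y * x.1⁻¹ * y.1⁻¹) := by simp [c, mul_assoc]
      _ = (x' * y * x'.1⁻¹ * y.1⁻¹) * (x * y * x.1⁻¹ * y.1⁻¹) := by rw [← this]; simp [mul_assoc]
      _ = _ := congrArg Subtype.val (mul_comm (c x' y) (c x y))
  have c2 : ∀ x y, c x y = (c y x)⁻¹ := fun x y => Subtype.ext (by simp [c, mul_assoc])
  have c3 : ∀ x y y', c x (y * y') = c x y * c x y' := fun x y y' => by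
    rw [c2, c1, mul_inv, ← c2, ← c2]
  let f : Q →* A → ℂˣ := MonoidHom.mk' (fun x y => χ (c x ⟨y, hA y.2⟩)) fun x x' => by
    ext y; simp [c1]
  have h1 : Nat.card A ≤ Nat.card f.range := by
    let e : A → f.range →* ℂˣ := fun y => (Pi.evalMonoidHom _ y).comp f.range.subtype
    let _ : CommGroup f.range := inferInstance
    have : Finite f.range := Finite.of_surjective _ f.rangeRestrict_surjective
    have : NeZero (Monoid.exponent f.range) := ⟨Monoid.exponent_ne_zero_of_finite⟩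
    have := CommGroup.card_monoidHom_of_hasEnoughRootsOfUnity f.range ℂ
    have h2 : Finite (f.range →* ℂˣ) := Nat.finite_of_card_ne_zero (this ▸ Nat.card_pos.ne')
    rw [← this]
    refine Nat.card_le_card_of_injective e fun y y' h => by_contra fun hne => ?_
    obtain ⟨x, hx, e1⟩ := hs (y * y'⁻¹) (hA (y * y'⁻¹).2) (fun e1 =>
      hne (Subtype.ext (mul_inv_eq_one.1 (hAZ _ (y * y'⁻¹).2 e1)))) z z.2
    have e2 : χ (c ⟨x, hx⟩ ⟨y, hA y.2⟩) = χ (c ⟨x, hx⟩ ⟨y', hA y'.2⟩) :=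
      DFunLike.congr_fun h ⟨f ⟨x, hx⟩, _, rfl⟩
    have e3 : c ⟨x, hx⟩ ⟨y, hA y.2⟩ = z * c ⟨x, hx⟩ ⟨y', hA y'.2⟩ := by
      rw [show z = c ⟨x, hx⟩ (⟨y, hA y.2⟩ * ⟨y', hA y'.2⟩⁻¹) from Subtype.ext e1, ← c3, inv_mul_cancel_right]
    rw [e3, map_mul, mul_eq_right] at e2
    exact hχ e2
  have h2 : Nat.card A * Nat.card Z₀ ≤ Nat.card f.ker := by
    rw [← Nat.card_prod]
    refine Nat.card_le_card_of_injective (fun u => ⟨⟨u.1.1 * u.2.1, mul_mem (hA u.1.2) (h0 u.2.2)⟩, ?_⟩)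
      fun u v e => ?_
    · refine funext fun y => ?_
      change χ (c (⟨_, hA u.1.2⟩ * ⟨_, h0 u.2.2⟩) _) = 1
      have e1 : c ⟨_, hA u.1.2⟩ ⟨y, hA y.2⟩ = 1 := Subtype.ext (hAZ _ (mul_mem (mul_mem (mul_mem u.1.2 y.2)
        (inv_mem u.1.2)) (inv_mem y.2)) (hZ (hm _ (hA u.1.2) _ (hA y.2))))
      have e2 : c ⟨_, h0 u.2.2⟩ ⟨y, hA y.2⟩ = 1 := Subtype.ext (by
        simp [c, (hc _ u.2.2 _ (hA y.2)).eq])
      rw [c1, e1, e2, mul_one, map_one]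
    · have e1 : u.1.1 * u.2.1 = v.1.1 * v.2.1 := congrArg (·.1.1) e
      have e2 : v.1.1⁻¹ * u.1.1 = v.2.1 * u.2.1⁻¹ := by
        rw [inv_mul_eq_iff_eq_mul, ← mul_assoc, ← e1, mul_inv_cancel_right]
      have e3 := hAZ _ (mul_mem (inv_mem v.1.2) u.1.2) (e2 ▸ mul_mem v.2.2 (inv_mem u.2.2))
      have e4 : u.1 = v.1 := Subtype.ext (inv_mul_eq_one.1 e3).symm
      rw [e4] at e1
      exact Prod.ext e4 (Subtype.ext (mul_left_cancel e1))
  rw [← f.ker.index_mul_card, Subgroup.index_ker, mul_assoc]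
  exact Nat.mul_le_mul h1 h2

theorem le_MR (R : Subgroup G) : R ≤ MR Ω R := fun r hr _ => ⟨r, hr, rfl⟩

theorem Nz.mr (h : Nz B R) : Nz B (MR Ω R) := fun g hg x hx a => by
  obtain ⟨r, hr, e⟩ := hx (g⁻¹ • a)
  exact ⟨_, h g hg r hr, by simp only [mul_smul, e]⟩

theorem Trs.of_MR (h : Trs Ω U) (h' : U ≤ MR Ω R) : Trs Ω R := fun a b => by
  obtain ⟨g, hg, rfl⟩ := h a b
  obtain ⟨r, hr, e⟩ := h' hg a
  exact ⟨r, hr, e.symm⟩

theorem MR_bot [FaithfulSMul G Ω] : MR Ω (⊥ : Subgroup G) = ⊥ := eq_bot_iff.2 fun g hg =>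
  eq_of_smul_eq_smul fun a : Ω => by
    obtain ⟨r, hr, e⟩ := hg a
    rw [e, Subgroup.mem_bot.1 hr]

/-- an element central in a transitive group modulo the kernel that fixes one orbit fixes all orbits -/
theorem mem_MR_of (hU : Trs Ω U) (h : Nz U R) (hy : ∀ r ∈ R, y * r * y⁻¹ ∈ R)
    (hc : ∀ u ∈ U, y⁻¹ * u⁻¹ * y * u ∈ MR Ω R) {r : G} (hr : r ∈ R) (e : y • a = r • a) : y ∈ MR Ω R := fun b => by
  obtain ⟨u, hu, rfl⟩ := hU a b
  obtain ⟨s, hs, e1⟩ := hc u hu a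
  refine ⟨u * (y * s * y⁻¹ * r) * u⁻¹, h u hu _ (mul_mem (hy s hs) hr), ?_⟩
  calc y • u • a = (u * y) • (y⁻¹ * u⁻¹ * y * u) • a := by simp [mul_smul]
    _ = _ := by rw [e1]; simp [mul_smul, ← e]

/-- `X` acts semiregularly on the orbits of `R` -/
def SemiM (Ω : Type*) [MulAction G Ω] (R X : Subgroup G) : Prop :=
  ∀ x ∈ X, ∀ a : Ω, ∀ r ∈ R, x • a = r • a → x = 1

theorem ob_mul_eq [Finite G] (h : Nz X R) (a : Ω) : ∃ A ≤ X, (∀ x, x ∈ A ↔ x ∈ X ∧ ∃ r ∈ R, x • a = r • a) ∧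
    ob (R ⊔ X) a * Nat.card A = ob R a * Nat.card X := by
  let A : Subgroup G :=
    { carrier := {x | x ∈ X ∧ ∃ r ∈ R, x • a = r • a}
      one_mem' := ⟨one_mem _, 1, one_mem _, rfl⟩
      mul_mem' := fun {x y} ⟨hx, r, hr, e⟩ ⟨hy, s, hs, e'⟩ => ⟨mul_mem hx hy, x * s * x⁻¹ * r,
        mul_mem (h x hx s hs) hr, by simp [mul_smul, e', ← e]⟩
      inv_mem' := fun {x} ⟨hx, r, hr, e⟩ => ⟨inv_mem hx, x⁻¹ * r⁻¹ * x, h.inv hx (inv_mem hr), by
        simp [mul_smul, e]⟩ }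
  refine ⟨A, fun x hx => hx.1, fun _ => Iff.rfl, ?_⟩
  let S := stabilizer G a
  have h1 : ∀ T : Subgroup G, ob T a = S.relIndex T := fun T =>
    Nat.eq_of_mul_eq_mul_right (st_pos T a) (by
      rw [ob_mul_st, st, inf_comm, ← Nat.card_congr (Subgroup.subgroupOfEquivOfLe inf_le_right).toEquiv,
        Subgroup.inf_subgroupOf_right, Subgroup.relIndex, Subgroup.index_mul_card])
  let Y := R ⊔ X
  let T := R ⊔ S ⊓ Y
  have hY : Nz Y R := (nz_self R).sup h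
  have hT : ∀ g, g ∈ T ↔ ∃ r ∈ R, ∃ s ∈ S ⊓ Y, g = r * s := fun g => by
    have := (hY.mono (inf_le_right : S ⊓ Y ≤ Y)).le
    rw [← SetLike.mem_coe, Subgroup.coe_mul_of_right_le_normalizer_left _ _ this]
    exact ⟨fun ⟨r, hr, s, hs, e⟩ => ⟨r, hr, s, hs, e.symm⟩, fun ⟨r, hr, s, hs, e⟩ => ⟨r, hr, s, hs, e.symm⟩⟩
  have hTY : T ≤ Y := sup_le le_sup_left inf_le_right
  have h2 : ob T a = ob R a := by
    refine congrArg Set.ncard (Set.ext fun b => ⟨?_, fun ⟨r, e⟩ => ⟨⟨r.1, Subgroup.mem_sup_left r.2⟩, e⟩⟩)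
    rintro ⟨⟨g, hg⟩, rfl⟩
    obtain ⟨r, hr, s, hs, rfl⟩ := (hT g).1 hg
    exact ⟨⟨r, hr⟩, by
      change r • a = (r * s) • a
      rw [mul_smul, show s • a = a from hs.1]⟩
  have h3 : A = T ⊓ X := by
    ext x
    refine ⟨fun ⟨hx, r, hr, e⟩ => ⟨(hT x).2 ⟨r, hr, r⁻¹ * x, ⟨?_, Y.mul_mem (Y.inv_mem (Subgroup.mem_sup_left hr))
      (Subgroup.mem_sup_right hx)⟩, by simp⟩, hx⟩, fun ⟨h4, hx⟩ => ⟨hx, ?_⟩⟩
    · change (r⁻¹ * x) • a = a
      rw [mul_smul, e, inv_smul_smul]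
    · obtain ⟨r, hr, s, hs, rfl⟩ := (hT x).1 h4
      exact ⟨r, hr, by rw [mul_smul, show s • a = a from hs.1]⟩
  have h4 : T.relIndex Y = T.relIndex X := by
    refine Nat.card_congr (Equiv.ofBijective (Quotient.map' (Subgroup.inclusion (le_sup_right : X ≤ Y))
      fun u v e => ?_) ⟨fun u v e => ?_, fun u => ?_⟩).symm
    · rw [QuotientGroup.leftRel_apply] at e ⊢; exact e
    · induction u using Quotient.inductionOn'
      induction v using Quotient.inductionOn'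
      have := QuotientGroup.leftRel_apply.1 (Quotient.exact' e)
      exact Quotient.sound' (QuotientGroup.leftRel_apply.2 this)
    · obtain ⟨⟨g, hg⟩, rfl⟩ := QuotientGroup.mk_surjective u
      rw [← SetLike.mem_coe, sup_comm, Subgroup.coe_mul_of_left_le_normalizer_right _ _ h.le] at hg
      obtain ⟨x, hx, r, hr, rfl⟩ := hg
      refine ⟨Quotient.mk'' ⟨x, hx⟩, Quotient.sound' (QuotientGroup.leftRel_apply.2 ?_)⟩
      change x⁻¹ * (x * r) ∈ T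
      rw [inv_mul_cancel_left]
      exact Subgroup.mem_sup_left hr
  have h5 : T.relIndex X * Nat.card A = Nat.card X := by
    rw [h3, ← Nat.card_congr (Subgroup.subgroupOfEquivOfLe inf_le_right).toEquiv,
      Subgroup.inf_subgroupOf_right, Subgroup.relIndex, Subgroup.index_mul_card]
  have h6 : S.relIndex T * T.relIndex Y = S.relIndex Y := by
    rw [← Subgroup.inf_relIndex_right S Y, ← Subgroup.relIndex_mul_relIndex (S ⊓ Y) T Y le_sup_right hTY,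
      ← Subgroup.inf_relIndex_right S T, ← Subgroup.inf_relIndex_right (S ⊓ Y) T, inf_assoc, inf_eq_right.2 hTY]
  rw [← h2, h1, h1, ← h6, h4, mul_assoc, h5]

theorem comm_mem_MR [Finite G] [Finite Ω] (hXU : X ≤ U) (h : Nz U R) (hX : ∀ x ∈ X, ∀ y ∈ X, Commute x y)
    (hc : ∀ x ∈ X, ∀ u ∈ U, x⁻¹ * u⁻¹ * x * u ∈ MR Ω R) (hs : SemiM Ω R X)
    (hn : Nat.card Ω ≤ ob R a * Nat.card X) {u v : G} (hu : u ∈ U) (hv : v ∈ U) :
    u * v * u⁻¹ * v⁻¹ ∈ MR Ω R := by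
  obtain ⟨A, -, h1, h2⟩ := ob_mul_eq (h.mono hXU) a
  rw [show A = ⊥ from eq_bot_iff.2 fun x hx => let ⟨h3, r, hr, e⟩ := (h1 x).1 hx; hs x h3 a r hr e,
    Subgroup.card_bot, mul_one] at h2
  have h3 : Trs Ω (R ⊔ X) := (trs_iff_ob a).2 (h2 ▸ hn)
  have hM := h.mr (Ω := Ω)
  have h4 : ∀ g ∈ R ⊔ X, ∃ x ∈ X, ∃ r ∈ R, g = x * r := fun g hg => by
    rw [← SetLike.mem_coe, sup_comm, Subgroup.coe_mul_of_left_le_normalizer_right _ _ (h.mono hXU).le] at hg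
    obtain ⟨x, hx, r, hr, rfl⟩ := hg
    exact ⟨x, hx, r, hr, rfl⟩
  have h5 : ∀ w ∈ U, ∃ x ∈ X, x⁻¹ * w ∈ MR Ω R := fun w hw => by
    obtain ⟨g, hg, e⟩ := h3 a (w • a)
    obtain ⟨x, hx, r, hr, rfl⟩ := h4 g hg
    have hy := mul_mem (inv_mem (hXU hx)) hw
    refine ⟨x, hx, mem_MR_of (a := a) h3 ((nz_self R).sup (h.mono hXU)) (h _ hy) (fun g hg => ?_) hr
      (by rw [mul_smul, ← e, mul_smul, inv_smul_smul])⟩
    obtain ⟨x', hx', r', hr', rfl⟩ := h4 g hg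
    generalize x⁻¹ * w = y at hy
    have := mul_mem (mul_mem (hM.inv hy (le_MR R (inv_mem hr'))) (inv_mem (hc x' hx' y hy))) (le_MR R hr')
    simpa [mul_assoc] using this
  obtain ⟨x, hx, h6⟩ := h5 u hu
  obtain ⟨y, hy, h7⟩ := h5 v hv
  have e : u * v * u⁻¹ * v⁻¹ = (x * (x⁻¹ * u) * x⁻¹) * ((x * y) * (y⁻¹ * v) * (x * y)⁻¹) *
      ((x * y) * (x⁻¹ * u)⁻¹ * (x * y)⁻¹) * (y * (y⁻¹ * v)⁻¹ * y⁻¹) := by
    have := (hX x hx y hy).eq
    calc _ = u * v * u⁻¹ * (x * (x * y)⁻¹ * y) * v⁻¹ := by rw [this]; group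
      _ = _ := by group
  rw [e]
  exact mul_mem (mul_mem (mul_mem (hM _ (hXU hx) _ h6) (hM _ (hXU (mul_mem hx hy)) _ h7))
    (hM _ (hXU (mul_mem hx hy)) _ (inv_mem h6))) (hM _ (hXU hy) _ (inv_mem h7))

/-- if `R ⊔ Q` is transitive, the product of the stabiliser of an `R`-orbit in `Q` with `Z` is normalised -/
theorem nz_final {A : Subgroup G} (hA : ∀ x, x ∈ A ↔ x ∈ Q ∧ ∃ r ∈ R, x • a = r • a) (hT : Trs Ω (R ⊔ Q))
    (hZ : Z ≤ Q) (hm : ∀ x ∈ Q, ∀ y ∈ Q, x * y * x⁻¹ * y⁻¹ ∈ Z) (hQP : Q ≤ P) (h1 : Nz P R) (h2 : Nz P Q)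
    (h3 : Nz P Z) : Nz P (A ⊔ Z) := by
  have hN : A ⊔ Z ≤ Q := sup_le (fun x hx => ((hA x).1 hx).1) hZ
  have hQ : Nz Q (A ⊔ Z) := fun x hx y hy => by
    simpa using mul_mem (Subgroup.mem_sup_right (hm x hx y (hN hy))) hy
  intro g hg
  obtain ⟨t, ht, e⟩ := hT a (g • a)
  rw [← SetLike.mem_coe, sup_comm, Subgroup.coe_mul_of_left_le_normalizer_right _ _ (h1.mono hQP).le] at ht
  obtain ⟨x, hx, r, hr, rfl⟩ := ht
  have hk := mul_mem (inv_mem (hQP hx)) hg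
  have e1 : (x⁻¹ * g) • a = r • a := by rw [mul_smul, ← e, mul_smul, inv_smul_smul]
  have h4 : A ⊔ Z ≤ (A ⊔ Z).comap (MulAut.conj (x⁻¹ * g)).toMonoidHom := by
    generalize x⁻¹ * g = k at hk e1
    refine sup_le (fun y hy => Subgroup.mem_sup_left ?_) fun y hy => Subgroup.mem_sup_right (h3 k hk y hy)
    obtain ⟨h5, s, hs, e2⟩ := (hA y).1 hy
    refine (hA _).2 ⟨h2 k hk y h5, k * (y * (k⁻¹ * r⁻¹ * k) * y⁻¹ * s) * k⁻¹ * r,
      mul_mem (h1 k hk _ (mul_mem (h1 y (hQP h5) _ (h1.inv hk (inv_mem hr))) hs)) hr, ?_⟩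
    change (k * y * k⁻¹) • a = _
    simp only [mul_smul, ← e1, inv_smul_smul, ← e2]
    rw [e1, inv_smul_smul]
  intro y hy
  simpa [mul_assoc] using hQ x hx _ (h4 hy)

/-- a Harish-Chandra type dichotomy -/
theorem hc_or [Finite G] [Finite Ω] (h : Two G Ω) (hX : ∀ g : G, ∃ X : Subgroup G,
    (∀ x ∈ X, g⁻¹ * x * g ∈ R') ∧ Nz X R ∧ Trs Ω (R ⊔ X)) :
    Trs Ω R ∨ Trs Ω R' := by
  classical
  have := Fintype.ofFinite Ω
  have := Fintype.ofFinite G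
  refine or_iff_not_imp_right.2 fun h1 a b => by_contra fun h2 => ?_
  simp only [Trs, not_forall] at h1
  obtain ⟨c, d, h1⟩ := h1
  let I : Ω → G → Prop := fun e g => ∃ r ∈ R', (g * r) • c = e
  let O : Ω → Finset Ω := fun a => univ.filter fun e => ∃ r ∈ R, r • a = e
  have h3 := h.fisher (X := G) (I := I) (fun g e k ⟨r, hr, h3⟩ => ⟨r, hr, by rw [← h3, smul_eq_mul, mul_assoc, mul_smul]⟩)
    (a₀ := c) (b₀ := d) (x₀ := 1) ⟨1, one_mem _, by simp⟩ (by simpa [I] using h1) (K := ℚ)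
    (f := fun e => (if e ∈ O a then 1 else 0) - if e ∈ O b then 1 else 0) fun g => by
      obtain ⟨X, x1, x2, x3⟩ := hX g
      obtain ⟨t, ht, eb⟩ := x3 a b
      rw [← SetLike.mem_coe, sup_comm, Subgroup.coe_mul_of_left_le_normalizer_right _ _ x2.le] at ht
      obtain ⟨x, hx, r, hr, rfl⟩ := ht
      rw [sum_sub_distrib, sub_eq_zero, sum_boole, sum_boole, filter_filter, filter_filter]
      refine congrArg _ (card_filter_smul x fun e => and_congr ⟨?_, ?_⟩ ?_)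
      · rintro ⟨s, hs, e1⟩
        exact ⟨g⁻¹ * x⁻¹ * g * s, mul_mem (x1 _ (inv_mem hx)) hs, by
          rw [← inv_smul_smul x e, ← e1]; simp [mul_smul]⟩
      · rintro ⟨s, hs, rfl⟩
        exact ⟨g⁻¹ * x * g * s, mul_mem (x1 _ hx) hs, by simp [mul_smul]⟩
      · simp only [O, mem_filter, mem_univ, true_and, ← eb]
        constructor
        · rintro ⟨s, hs, e1⟩
          exact ⟨x⁻¹ * s * x * r, mul_mem (x2.inv hx hs) hr, by
            rw [← inv_smul_smul x e, ← e1]; simp [mul_smul]⟩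
        · rintro ⟨s, hs, rfl⟩
          exact ⟨x * (s * r⁻¹) * x⁻¹, x2 x hx _ (mul_mem hs (inv_mem hr)), by simp [mul_smul]⟩
  have h4 := congrFun h3 b
  simp only [O, mem_filter, mem_univ, true_and] at h4
  rw [if_neg h2, if_pos ⟨1, one_mem _, one_smul _ _⟩] at h4
  simp at h4

theorem num_cases {n N Q S l : ℕ} (hn : Q ∣ n) (hN : Q ∣ N) (h0 : 0 < n) (h1 : 0 < N) (hS : S < Q) (hS0 : 0 < S)
    (e : (n - 1) * l = (N - 1) * S) : n = N ∨ (n - 1) * (Q + S) ≤ (N - 1) * S := by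
  have h2 : l % Q = S := by
    obtain ⟨n, rfl⟩ := Nat.exists_eq_add_of_le' h0
    obtain ⟨N, rfl⟩ := Nat.exists_eq_add_of_le' h1
    rw [Nat.add_sub_cancel, Nat.add_sub_cancel] at e
    obtain ⟨a, ha⟩ := hn
    obtain ⟨b, hb⟩ := hN
    have h3 : l + Q * (b * S) = S + Q * (a * l) := by
      rw [← mul_assoc, ← mul_assoc, ← ha, ← hb]; nlinarith
    have h4 := congrArg (· % Q) h3
    simpa [Nat.mod_eq_of_lt hS] using h4
  have h3 := Nat.div_add_mod l Q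
  rw [h2] at h3
  rcases (l / Q).eq_zero_or_pos with h4 | h4
  · rw [h4, mul_zero, zero_add] at h3
    rw [← h3] at e
    have := Nat.eq_of_mul_eq_mul_right hS0 e
    omega
  · refine Or.inr (e ▸ Nat.mul_le_mul_left _ ?_)
    nlinarith

end Cfsg.Agent.T2X
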