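/-
Counting lemmas for a group with a transitive subgroup `B`: partitions of normal subgroups by conjugates,
sizes of conjugacy classes, orders of the terms of a filtration.
-/
import Cfsg.Agent.Lib.T2.Des
import Cfsg.Agent.Lib.CExt.Filt

set_option autoImplicit false

namespace Cfsg.Agent.T2X.TF

open MulAction

variable {G Ω : Type*} [Group G] [MulAction G Ω]

/-- The elements of `X` outside `Z` fixing `a`. -/
def fx (X Z : Subgroup G) (a : Ω) : Set G := {x | x ∈ X ∧ x ∉ Z ∧ x • a = a}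

theorem ncard_fx_le [Finite G] {X Z : Subgroup G} {g : G} (hX : ConjLe g X X) (hZ : ConjLe g⁻¹ Z Z) (a : Ω) :
    (fx X Z a).ncard ≤ (fx X Z (g • a)).ncard :=
  Set.ncard_le_ncard_of_injOn (fun x => g * x * g⁻¹) (fun x hx => ⟨hX x hx.1, fun h => hx.2.1 (by
    simpa [mul_assoc] using hZ _ h), by simp [mul_smul, hx.2.2]⟩) (fun x _ y _ e => by simpa using e) (Set.toFinite _)

theorem ncard_fx_eq [Finite G] {B X Z : Subgroup G} (hB : ∀ a b : Ω, ∃ g ∈ B, g • a = b) (hX : ∀ g ∈ B, ConjLe g X X)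
    (hZ : ∀ g ∈ B, ConjLe g Z Z) (a b : Ω) : (fx X Z a).ncard = (fx X Z b).ncard := by
  have key : ∀ a b : Ω, (fx X Z a).ncard ≤ (fx X Z b).ncard := fun a b => by
    obtain ⟨g, hg, rfl⟩ := hB a b
    exact ncard_fx_le (hX g hg) (hZ _ (inv_mem hg)) a
  exact le_antisymm (key a b) (key b a)

theorem ncard_fx_add [Finite G] {X Z : Subgroup G} (h : Z ≤ X) (a : Ω) :
    (fx X Z a).ncard + Nat.card ↥(Z ⊓ stabilizer G a) = Nat.card ↥(X ⊓ stabilizer G a) := by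
  rw [← SetLike.coe_sort_coe, ← SetLike.coe_sort_coe, Nat.card_coe_set_eq, Nat.card_coe_set_eq,
    ← Set.ncard_union_eq (Set.disjoint_left.mpr fun x hx hz => hx.2.1 hz.1)]
  congr 1
  ext x
  by_cases e : x ∈ Z
  · simp [fx, e, h e]
  · simp [fx, e]

theorem ncard_diff [Finite G] {X Z : Subgroup G} (h : Z ≤ X) :
    ((X : Set G) \ Z).ncard + Nat.card Z = Nat.card X := by
  rw [← SetLike.coe_sort_coe, ← SetLike.coe_sort_coe, Nat.card_coe_set_eq, Nat.card_coe_set_eq,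
    Set.ncard_sdiff_add_ncard_of_subset h]

/-- `Y \ Z` is partitioned by conjugates of `X \ Z`. -/
theorem part [Finite G] {B X Y Z : Subgroup G} (hB : ∀ a b : Ω, ∃ g ∈ B, g • a = b) (hX : ∀ g ∈ B, ConjLe g X X)
    (hZ : ∀ g ∈ B, ConjLe g Z Z) {ι : Type*} [Finite ι] (g : ι → G) (h1 : ∀ i, ConjLe (g i) X Y)
    (h1' : ∀ i, ConjLe (g i)⁻¹ Z Z)
    (h2 : ∀ i j, i ≠ j → ∀ x ∈ X, (g j)⁻¹ * g i * x * ((g j)⁻¹ * g i)⁻¹ ∈ X → x ∈ Z)
    (hc : ((Y : Set G) \ Z).ncard ≤ Nat.card ι * ((X : Set G) \ Z).ncard) (a : Ω) :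
    (fx Y Z a).ncard = Nat.card ι * (fx X Z a).ncard := by
  classical
  have hm : ∀ i x, x ∈ (X : Set G) \ Z → g i * x * (g i)⁻¹ ∈ (Y : Set G) \ Z := fun i x hx =>
    ⟨h1 i x hx.1, fun h => hx.2 (by simpa [mul_assoc] using h1' i _ h)⟩
  have hinj : ∀ i j, ∀ x ∈ (X : Set G) \ Z, ∀ y ∈ X, g i * x * (g i)⁻¹ = g j * y * (g j)⁻¹ → i = j ∧ x = y :=
    fun i j x hx y hy e => by
      obtain rfl : i = j := by
        by_contra hne
        refine hx.2 (h2 i j hne x hx.1 ?_)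
        have : (g j)⁻¹ * g i * x * ((g j)⁻¹ * g i)⁻¹ = (g j)⁻¹ * (g i * x * (g i)⁻¹) * g j := by group
        rw [this, e]
        simpa [mul_assoc] using hy
      exact ⟨rfl, by simpa using e⟩
  let Φ : ι × ↥((X : Set G) \ Z) → ↥((Y : Set G) \ Z) := fun p => ⟨_, hm p.1 p.2 p.2.2⟩
  have hΦ : Function.Injective Φ := fun p p' e => by
    obtain ⟨e1, e2⟩ := hinj p.1 p'.1 _ p.2.2 _ p'.2.2.1 (congrArg Subtype.val e)
    exact Prod.ext e1 (Subtype.ext e2)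
  have hs : Function.Surjective Φ := by
    refine (hΦ.bijective_of_nat_card_le ?_).2
    rwa [Nat.card_prod, Nat.card_coe_set_eq, Nat.card_coe_set_eq]
  let Ψ : (Σ i, ↥(fx X Z ((g i)⁻¹ • a))) → ↥(fx Y Z a) := fun p =>
    ⟨g p.1 * p.2 * (g p.1)⁻¹, (hm p.1 _ ⟨p.2.2.1, p.2.2.2.1⟩).1, (hm p.1 _ ⟨p.2.2.1, p.2.2.2.1⟩).2, by
      rw [mul_smul, mul_smul, p.2.2.2.2, smul_inv_smul]⟩
  have hΨ : Function.Bijective Ψ := by
    constructor
    · rintro ⟨i, x, hx⟩ ⟨j, y, hy⟩ e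
      obtain ⟨rfl, rfl⟩ := hinj i j x ⟨hx.1, hx.2.1⟩ y hy.1 (congrArg Subtype.val e)
      rfl
    · rintro ⟨y, hy⟩
      obtain ⟨⟨i, x, hx⟩, e⟩ := hs ⟨y, hy.1, hy.2.1⟩
      obtain rfl : g i * x * (g i)⁻¹ = y := congrArg Subtype.val e
      refine ⟨⟨i, x, hx.1, hx.2, ?_⟩, rfl⟩
      have := hy.2.2
      rwa [mul_smul, mul_smul, smul_eq_iff_eq_inv_smul] at this
  have := Fintype.ofFinite ι
  rw [← Nat.card_coe_set_eq, ← Nat.card_eq_of_bijective Ψ hΨ, Nat.card_sigma,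
    Finset.sum_congr rfl fun i _ => (Nat.card_coe_set_eq _).trans (ncard_fx_eq hB hX hZ _ a), Finset.sum_const,
    smul_eq_mul, Finset.card_univ, Nat.card_eq_fintype_card]

theorem pow_arith {i j r : ℕ} (h : 2 ^ j + 2 ^ r = 2 ^ r * 2 ^ i + 2 ^ i) (hr : r ≠ 0) : i = 0 ∨ i = r := by
  rcases Nat.eq_zero_or_pos i with rfl | hi
  · exact Or.inl rfl
  obtain ⟨i, rfl⟩ := Nat.exists_eq_add_of_le' hi
  right
  have h1 : 2 ^ (r + i) < 2 ^ j := by
    have : 2 ^ r * 1 ≤ 2 ^ r * 2 ^ i := Nat.mul_le_mul_left _ Nat.one_le_two_pow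
    have : 0 < 2 ^ i := by positivity
    rw [pow_add]; rw [pow_succ] at h; nlinarith
  have h2 : 2 ^ j < 2 ^ (r + i + 2) := by
    have : 1 * 2 ^ i ≤ 2 ^ r * 2 ^ i := Nat.mul_le_mul_right _ Nat.one_le_two_pow
    have : 0 < 2 ^ r := by positivity
    rw [pow_add, pow_add]; rw [pow_succ] at h; nlinarith
  obtain rfl : j = r + (i + 1) := by
    have := (Nat.pow_lt_pow_iff_right one_lt_two).1 h1
    have := (Nat.pow_lt_pow_iff_right one_lt_two).1 h2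
    omega
  rw [pow_add] at h
  exact (Nat.pow_right_injective le_rfl (by simpa using h)).symm

theorem card_mul_le [Finite G] {A B C : Subgroup G} (hA : A ≤ C) (hB : B ≤ C) (h : ∀ x ∈ A, x ∈ B → x = 1) :
    Nat.card A * Nat.card B ≤ Nat.card C := by
  rw [← Nat.card_prod]
  refine Nat.card_le_card_of_injective (fun p => ⟨p.1 * p.2, mul_mem (hA p.1.2) (hB p.2.2)⟩) ?_
  rintro ⟨a, b⟩ ⟨a', b'⟩ e
  have e1 : (a : G) * b = a' * b' := congrArg Subtype.val e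
  have e2 : (a' : G)⁻¹ * a = b' * (b : G)⁻¹ := by rw [inv_mul_eq_iff_eq_mul, ← mul_assoc, ← e1]; simp
  have e3 := h _ (mul_mem (inv_mem a'.2) a.2) (e2 ▸ mul_mem b'.2 (inv_mem b.2))
  obtain rfl : a = a' := Subtype.ext (inv_mul_eq_one.mp e3).symm
  exact Prod.ext rfl (Subtype.ext (mul_left_cancel e1))

theorem ncard_conj_mul_le [Finite G] {U D : Subgroup G} (hD : D ≤ U) {T : Set G} (h : ∀ d ∈ D, ∀ y ∈ T, Commute d y) :
    {z | ∃ u ∈ U, ∃ y ∈ T, u * y * u⁻¹ = z}.ncard * Nat.card D ≤ Nat.card U * T.ncard := by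
  have h1 : {z | ∃ u ∈ U, ∃ y ∈ T, u * y * u⁻¹ = z}.ncard ≤ Nat.card (U ⧸ D.subgroupOf U) * T.ncard := by
    rw [← Nat.card_coe_set_eq, ← Nat.card_coe_set_eq, ← Nat.card_prod]
    refine Nat.card_le_card_of_surjective (fun p : (U ⧸ D.subgroupOf U) × T =>
      ⟨(p.1.out : G) * p.2 * (p.1.out : G)⁻¹, _, p.1.out.2, _, p.2.2, rfl⟩) ?_
    rintro ⟨_, u, hu, y, hy, rfl⟩
    obtain ⟨d, hd⟩ := QuotientGroup.mk_out_eq_mul (D.subgroupOf U) ⟨u, hu⟩
    refine ⟨⟨QuotientGroup.mk ⟨u, hu⟩, y, hy⟩, Subtype.ext ?_⟩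
    have : ((d : U) : G) * y = y * ((d : U) : G) := (h _ d.2 y hy).eq
    simp only [hd, Subgroup.coe_mul, mul_inv_rev, mul_assoc]
    rw [← mul_assoc ((d : U) : G), this]
    simp
  calc _ ≤ Nat.card (U ⧸ D.subgroupOf U) * T.ncard * Nat.card D := Nat.mul_le_mul_right _ h1
    _ = _ := by
      rw [Subgroup.card_eq_card_quotient_mul_card_subgroup (D.subgroupOf U),
        Nat.card_congr (Subgroup.subgroupOfEquivOfLe hD).toEquiv]; ring

theorem card_sub_one_le [Finite G] [Finite Ω] (h : T2.Two G Ω) {z : G} {a : Ω} (hz : z • a ≠ a) :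
    Nat.card Ω ≤ {y | ∃ g, g * z * g⁻¹ = y}.ncard + 1 := by
  have h1 : ({a}ᶜ : Set Ω) ⊆ (fun y : G => y • a) '' {y | ∃ g, g * z * g⁻¹ = y} := fun b hb => by
    obtain ⟨g, e1, e2⟩ := h a (z • a) a b hz.symm (Ne.symm hb)
    exact ⟨_, ⟨g, rfl⟩, by simp only [mul_smul]; rw [← e2, ← e1, inv_smul_smul, e1]⟩
  have h2 := (Set.ncard_le_ncard h1).trans (Set.ncard_image_le (Set.toFinite _))
  have h3 := Set.ncard_add_ncard_compl ({a} : Set Ω)
  rw [Set.ncard_singleton] at h3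
  omega

theorem card_filt {K : Type*} [Field K] (S : Filt G K) {i : ℕ} (hi : i < S.m) (h : ∀ t, ∃ g ∈ S.F i, S.c i g = t) :
    Nat.card (S.F i) = Nat.card K * Nat.card (S.F (i + 1)) := by
  choose g h1 h2 using h
  rw [← Nat.card_prod]
  refine (Nat.card_eq_of_bijective (fun y : K × S.F (i + 1) =>
    (⟨g y.1 * y.2, mul_mem (h1 _) (S.anti i y.2.2)⟩ : S.F i)) ⟨?_, ?_⟩).symm
  · rintro ⟨t, b⟩ ⟨t', b'⟩ e
    have h3 : g t * b = g t' * b' := congrArg Subtype.val e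
    obtain rfl : t = t' := by
      rw [← h2 t, ← h2 t', ← Filt.c_mul_low hi (h1 t) b.2, h3, Filt.c_mul_low hi (h1 t') b'.2]
    exact Prod.ext rfl (Subtype.ext (mul_left_cancel h3))
  · rintro ⟨a, ha⟩
    exact ⟨⟨S.c i a, _, Filt.inv_mul_mem hi (h1 _) ha (h2 _)⟩, Subtype.ext (by simp)⟩

end Cfsg.Agent.T2X.TF
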