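/-
The Borel subgroup of `²F₄(q)`, `q ≥ 8`, is not transitive in a faithful doubly transitive action.
-/
import Cfsg.Agent.Lib.T2X.TF4a
import Cfsg.Agent.Lib.Ord.Twisted
import Cfsg.Agent.Lib.Tw.Invol3

set_option autoImplicit false

namespace Cfsg.Agent.T2X

open MulAction Cfsg.Lie Cfsg.Agent.Chev Cfsg.Agent.Chev.RSys Cfsg.Agent.Chev.PreRGD Cfsg.Agent.ChevM

namespace TF

section

variable {D : ChevalleyDatum} {T : TwData} [Tab D] {L : LevD} {K : Type*} [Field K] [Finite K] {G : Type*} [Group G]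
  {x : ℕ → K → G} {φ : K →+* K} {σ : G →* G} (h : IsTw D T x φ σ) (hL : LevOK D T L) {Γ : Type*} [Group Γ]
  {f : Γ →* G} (E : h.fold.Emb f)

theorem conjLe_B {g : Γ} (hg : f g ∈ h.chv.rel.pre.B) (i : ℕ) : ConjLe g ((h.filt hL E).F i) ((h.filt hL E).F i) := by
  intro a ha
  obtain ⟨u, hu, k, hk, e⟩ := (mem_B_iff _).mp hg
  obtain ⟨n, hn⟩ := hL.exists_Lv_eq i
  rw [h.mem_filt_F hL E] at ha ⊢
  have h1 := (over_one_iff.mpr hk).conj_US (S := Lv D L i) (T := Lv D L i) (fun _ => id) ha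
  rw [hn] at h1 ⊢
  simpa [e, mul_assoc] using hL.conj_mem h.chv.rel h.char hu h1

theorem conjLe_U {g : Γ} (hg : f g ∈ h.chv.rel.pre.U) (i : ℕ) : ConjLe g ((h.filt hL E).F i) ((h.filt hL E).F i) :=
  conjLe_B h hL E (U_le_B _ hg) i

theorem mem_of_cell {i : Fin D.rank} {k l : ℕ} (hc : (rs D).Closed (Lv D L k))
    (hk : ∀ r ∈ Lv D L k, h.fold.s i r ∈ Lv D L k → r ∈ Lv D L l) {b m b' : Γ} (hb : f b ∈ h.chv.rel.pre.U)
    (hm : h.chv.rel.pre.Over (f m) (h.fold.s i)) (hb' : f b' ∈ h.chv.rel.pre.U) {a : Γ} (ha : a ∈ (h.filt hL E).F k)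
    (h1 : b * m * b' * a * (b * m * b')⁻¹ ∈ (h.filt hL E).F k) : a ∈ (h.filt hL E).F l := by
  have h2 := conjLe_U h hL E (g := b⁻¹) (by simpa using hb) k _ h1
  have h3 := E.conjLe_US (m := m⁻¹) (w := h.fold.s i) (by simpa using hm.inv) (S := Lv D L k)
    (T := h.fold.s i ⁻¹' Lv D L k) (fun r hr => by simpa using hr) _ h2
  have h4 : f (b' * a * b'⁻¹) ∈ h.chv.rel.pre.US (Lv D L k) ⊓ h.chv.rel.pre.US (h.fold.s i ⁻¹' Lv D L k) :=
    ⟨conjLe_U h hL E hb' k a ha, by simpa [mul_assoc] using h3⟩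
  have hA := Fold.mem_Aut (h.fold.s_mem i)
  rw [E.nd.US_inf' hc (hc.preimage hA) (fun _ hr => hr.1) ((halfSpace_of_pos fun _ hr => hr.1).preimage hA)] at h4
  simpa [mul_assoc] using conjLe_U h hL E (g := b'⁻¹) (by simpa using hb') l (b' * a * b'⁻¹)
    (USub_mono (fun r hr => hk r hr.1 hr.2) h4)

theorem part_tw [Finite Γ] {Ω : Type*} [MulAction Γ Ω] (hB : ∀ a b : Ω, ∃ g : Γ, f g ∈ h.chv.rel.pre.B ∧ g • a = b)
    {i : Fin D.rank} {j k l : ℕ} (hjk : j ≤ k) (hkl : k ≤ l) (hc : (rs D).Closed (Lv D L k))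
    (hj : ∀ r ∈ Lv D L k, h.fold.s i r ∈ Lv D L j) (hl : ∀ r ∈ Lv D L l, h.fold.s i r ∈ Lv D L l)
    (hk : ∀ r ∈ Lv D L k, h.fold.s i r ∈ Lv D L k → r ∈ Lv D L l) {ι : Type*} [Finite ι] {u : ι → Γ}
    (hu : ∀ t, f (u t) ∈ h.chv.rel.pre.UL (h.fold.orb i)) (hi : Function.Injective u)
    (hn : Nat.card ((h.filt hL E).F j) + (Nat.card ι + 1) * Nat.card ((h.filt hL E).F l) ≤
      (Nat.card ι + 1) * Nat.card ((h.filt hL E).F k) + Nat.card ((h.filt hL E).F l)) (a : Ω) :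
    Nat.card ↥((h.filt hL E).F j ⊓ stabilizer Γ a) +
        (Nat.card ι + 1) * Nat.card ↥((h.filt hL E).F l ⊓ stabilizer Γ a) =
      (Nat.card ι + 1) * Nat.card ↥((h.filt hL E).F k ⊓ stabilizer Γ a) +
        Nat.card ↥((h.filt hL E).F l ⊓ stabilizer Γ a) := by
  set S := h.filt hL E
  have hU : ∀ t, f (u t) ∈ h.chv.rel.pre.U := fun t => UL_le_U _ _ (hu t)
  have hn' : h.chv.rel.pre.Over (f (E.n i)⁻¹) (h.fold.s i) := by simpa using (E.over_n i).inv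
  have h1 := part (B := h.chv.rel.pre.B.comap f) (X := S.F k) (Y := S.F j) (Z := S.F l) hB
    (fun g hg => conjLe_B h hL E hg k) (fun g hg => conjLe_B h hL E hg l)
    (fun o : Option ι => o.elim 1 fun t => u t * E.n i) ?_ ?_ ?_ ?_ a
  · rw [← ncard_fx_add (S.F_mono (hjk.trans hkl)), ← ncard_fx_add (S.F_mono hkl), h1, Finite.card_option]; ring
  · rintro (_ | t)
    · exact ConjLe.one.mpr (S.F_mono hjk)
    · exact (conjLe_U h hL E (hU t) j).mul (E.conjLe_US (E.over_n i) hj)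
  · rintro (_ | t)
    · simpa using ConjLe.one.mpr le_rfl
    · have := (E.conjLe_US hn' hl).mul (conjLe_U h hL E (g := (u t)⁻¹) (by simpa using hU t) l)
      rwa [← mul_inv_rev] at this
  · rintro (_ | t) (_ | t') hne y hy h2
    · exact absurd rfl hne
    · exact mem_of_cell h hL E hc hk (b := 1) (b' := (u t')⁻¹) (by simp) hn' (by simpa using hU t') hy
        (by simpa using h2)
    · exact mem_of_cell h hL E hc hk (b' := 1) (hU t) (E.over_n i) (by simp) hy (by simpa using h2)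
    · obtain ⟨c, c', h3, h4, h5⟩ := E.rank1 (i := i) (y := (E.n i)⁻¹ * ((u t')⁻¹ * u t) * (E.n i)⁻¹⁻¹)
        (by simpa using hn'.w0J_conj_UL (mul_mem (inv_mem (hu t')) (hu t)))
        (fun e => hne (congrArg some (hi (inv_mul_eq_one.mp (conj_eq_one_iff.mp e)).symm)))
      exact mem_of_cell h hL E hc hk (b := c⁻¹) (b' := c'⁻¹) (by simpa using UL_le_U _ _ h3) h5
        (by simpa using UL_le_U _ _ h4) hy (by simpa [mul_assoc] using h2)
  · have h2 := ncard_diff (S.F_mono (hjk.trans hkl))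
    have h3 := ncard_diff (S.F_mono hkl)
    rw [Finite.card_option]
    rw [← h2, ← h3, mul_add] at hn
    omega

end

section

variable {K : Type*} [Field K] {G : Type*} [Group G] {x : ℕ → K → G} {φ : K →+* K} {σ : G →* G}
  (h : IsTw chevF4 twF4 x φ σ)

theorem s0_F4 (r : Fin chevF4.nroots) : (h.fold.s (repF4 0) r : ℕ) = wordN chevF4 [0, 3] r := by
  have h1 : ∀ j, j ∈ h.fold.orb (repF4 0) ↔ (j : ℕ) = 3 ∨ (j : ℕ) = 0 := fun j => by
    rw [Fold.mem_orb_two (Fin.ext (by rw [IsTw.fold_π, Twist.νp_val, Twist.νp_val]; decide +kernel)), Fin.ext_iff,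
      Fin.ext_iff, IsTw.fold_π, Twist.νp_val]
    rfl
  rw [Fold.s, ← eq_w0J (wordW_mem_WJ _ (l := [⟨0, by decide⟩, ⟨3, by decide⟩])
    fun i hi => (h1 i).mpr (by revert i; simp)) fun j hj => ?_, wordW_val]
  · rfl
  rw [rs_isPos_iff_le, wordW_val]
  rw [h1] at hj
  revert j; decide +kernel

theorem ab_Lv : Ab (Lv chevF4 levF4 9) := by
  refine ⟨fun _ hr => hr.1, fun r hr s hs k e => ?_⟩
  have h1 : ∀ i : Fin chevF4.rank, rcN chevF4 k i = rcN chevF4 r i + rcN chevF4 s i := fun i => congrFun e i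
  rw [mem_Lv_iff] at hr hs
  clear e
  revert r s k
  decide +kernel

/-- The highest short root. -/
def r44 : Fin chevF4.nroots := ⟨44, by decide⟩

theorem orbit_F4 {w : Equiv.Perm (Fin chevF4.nroots)} (hw : w ∈ h.fold.WF) :
    (w r44 : ℕ) ∈ [44, 40, 36, 28, 19, 11, 7, 3] := by
  have key : ∀ w ∈ h.fold.WF, (w⁻¹ r44).val ∈ [44, 40, 36, 28, 19, 11, 7, 3] := fun w hw => by
    refine Fold.WF_induction (C := fun w : Equiv.Perm (Fin chevF4.nroots) =>
      (w⁻¹ r44).val ∈ [44, 40, 36, 28, 19, 11, 7, 3]) (by simp [r44]) (fun w _ i _ ih => ?_) hw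
    obtain ⟨a, ha⟩ := h.hrep_F4 i
    rw [mul_inv_rev, Fold.s_inv, Equiv.Perm.mul_apply, Fold.s_eq ha]
    generalize w⁻¹ r44 = r at ih
    fin_cases a
    · erw [s0_F4]; revert r; decide +kernel
    · erw [h.s_F4]; revert r; decide +kernel
  simpa using key _ (inv_mem hw)

theorem Lv_of_fix {w : Equiv.Perm (Fin chevF4.nroots)} (hw : w ∈ h.fold.WF) (e : w r44 = r44) :
    ∀ r ∈ Lv chevF4 levF4 11, w r ∈ Lv chevF4 levF4 11 := by
  have h1 : ∀ r, r ∈ Lv chevF4 levF4 11 ↔ r = r44 ∨ r = h.fold.ρ r44 := fun r => by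
    rw [mem_Lv_iff, Fin.ext_iff, Fin.ext_iff, IsTw.fold_ρ, Twist.ρ_val]; revert r; decide +kernel
  intro r hr
  rw [h1] at hr ⊢
  rcases hr with rfl | rfl
  · exact Or.inl e
  · exact Or.inr (by rw [← (Fold.mem_WF.mp hw).2, e])

variable [Finite K] [CharP K 2] (hφ2 : ∀ t, φ (φ t) ^ 2 = t) {Γ : Type*} [Group Γ] {f : Γ →* G} (E : h.fold.Emb f)
include hφ2 E

theorem fam_a : ∃ u : K → Γ, (∀ t, f (u t) ∈ h.chv.rel.pre.UL (h.fold.orb (repF4 0))) ∧ Function.Injective u := by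
  have e : levOK_F4.repF (i := 2) (by decide) = (rs chevF4).simple (repF4 0) := Fin.ext (by decide +kernel)
  have ok := h.orbOK_F4 (r := levOK_F4.repF (i := 2) (by decide)) (by decide +kernel)
  refine ⟨h.Y E (levF4.rep 2) 2, fun t => ?_, fun t t' e => ?_⟩
  · have := h.map_Y E ok (h.iter_F4 hφ2 _ t) ▸ ok.dl_mem_O (x_mem_XS _ t)
    rw [e] at ok
    rw [ok.UL_eq, ← e]
    exact this
  · rw [← (h.filt_Y levOK_F4 E (by decide) ok (h.iter_F4 hφ2 (levOK_F4.repF (i := 2) (by decide)) t)).2, e,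
      (h.filt_Y levOK_F4 E (by decide) ok (h.iter_F4 hφ2 (levOK_F4.repF (i := 2) (by decide)) t')).2]

theorem fam_b : ∃ u : K × K → Γ, (∀ t, f (u t) ∈ h.chv.rel.pre.UL (h.fold.orb (repF4 1))) ∧ Function.Injective u := by
  choose b hb using h.exists_bW hφ2 E
  refine ⟨fun p => b p.1 0 * b 0 p.2, fun p => ?_, ?_⟩
  · rw [map_mul, hb, hb]
    exact mul_mem (h.bW_mem_UL _ _) (h.bW_mem_UL _ _)
  · rintro ⟨t, s⟩ ⟨t', s'⟩ e
    have h0 : 0 < (h.filt levOK_F4 E).m := show 0 < 12 by decide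
    obtain rfl : t = t' := by
      have h1 := fun t s => Filt.c_mul_low h0 (h.filt_bW0 E (hb t 0)).1 (h.filt_bW1 E (hb 0 s)).1
      rw [← (h.filt_bW0 E (hb t 0)).2, ← (h.filt_bW0 E (hb t' 0)).2, ← h1 t s, ← h1 t' s']
      exact congrArg _ e
    obtain rfl : s = s' := by
      rw [← (h.filt_bW1 E (hb 0 s)).2, ← (h.filt_bW1 E (hb 0 s')).2, mul_left_cancel e]
    rfl

theorem ncard_class [Finite Γ] {z : Γ} (hz : z ∈ (h.filt levOK_F4 E).F 11) (h1 : z ≠ 1) :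
    {y | ∃ g, g * z * g⁻¹ = y}.ncard * Nat.card K ^ 2 ≤
      8 * (Nat.card ((h.filt levOK_F4 E).F 0) * (Nat.card ((h.filt levOK_F4 E).F 11) - 1)) := by
  classical
  set S := h.filt levOK_F4 E
  have hc : ∀ a ∈ S.F 0, ∀ b ∈ S.F 11, Commute a b := fun a ha b hb => by
    have := S.comm 11 a ha b hb
    rw [show S.F (11 + 1) = ⊥ from S.top, Subgroup.mem_bot, mul_assoc, mul_assoc, inv_mul_eq_one,
      eq_inv_mul_iff_mul_eq] at this
    exact this.symm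
  have hU : ∀ {g}, g ∈ S.F 0 ↔ f g ∈ h.chv.rel.pre.U := by simp [S, h.filt_F_zero]
  let C : ℕ → Set Γ := fun r => {y | ∃ w ∈ h.fold.WF, ∃ m, ∃ u ∈ S.F 0, h.chv.rel.pre.Over (f m) w ∧
    (w r44 : ℕ) = r ∧ u * (m * z * m⁻¹) * u⁻¹ = y}
  have h2 : ∀ r, (C r).ncard * Nat.card K ^ 2 ≤ Nat.card (S.F 0) * (Nat.card (S.F 11) - 1) := fun r => by
    rcases (C r).eq_empty_or_nonempty with e | ⟨-, w, hw, m, -, -, hm, e, -⟩
    · simp [e]
    obtain ⟨w, hw, m, hm, e, hp⟩ : ∃ w ∈ h.fold.WF, ∃ m, h.chv.rel.pre.Over (f m) w ∧ (w r44 : ℕ) = r ∧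
        (rs chevF4).IsPos (w ((rs chevF4).simple (repF4 1))) := by
      by_cases hp : (rs chevF4).IsPos (w ((rs chevF4).simple (repF4 1)))
      · exact ⟨w, hw, m, hm, e, hp⟩
      · exact ⟨_, mul_mem hw (h.fold.s_mem _), m * E.n (repF4 1), by simpa using hm.mul (E.over_n _), by
          rw [Equiv.Perm.mul_apply, show h.fold.s (repF4 1) r44 = r44 from Fin.ext (by rw [h.s_F4]; decide +kernel), e],
          (Fold.isPos_mul_s hw).mpr hp⟩
    obtain ⟨u, hu, hi⟩ := fam_b h hφ2 E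
    have h3 := ncard_conj_mul_le (U := S.F 0)
      (D := ((h.chv.rel.pre.UL (h.fold.orb (repF4 1))).comap f).map (MulAut.conj m).toMonoidHom)
      (T := (fun y => m * y * m⁻¹) '' ((S.F 11 : Set Γ) \ (⊥ : Subgroup Γ)))
      (by rintro _ ⟨a, ha, rfl⟩; exact hU.mpr (E.conjLe_UL_of_isPos hm hp a ha))
      (by rintro _ ⟨a, ha, rfl⟩ _ ⟨b, hb, rfl⟩; exact (hc a (hU.mpr (UL_le_U _ _ ha)) b hb.1).conj m)
    have h4 := ncard_diff (show ⊥ ≤ S.F 11 from bot_le)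
    rw [Subgroup.card_bot] at h4
    rw [Set.ncard_image_of_injective _ fun a b e => by simpa using e, Nat.eq_sub_of_add_eq h4] at h3
    refine le_trans (Nat.mul_le_mul (Set.ncard_le_ncard ?_) ?_) h3
    · rintro _ ⟨w', hw', m', u, hu, hm', e', rfl⟩
      refine ⟨u, hu, _, ⟨m⁻¹ * m' * z * (m⁻¹ * m')⁻¹, ⟨E.conjLe_US (w := w⁻¹ * w') (by simpa using hm.inv.mul hm')
        (Lv_of_fix h (mul_mem (inv_mem hw) hw') ?_) z hz, fun e => h1 (conj_eq_one_iff.mp e)⟩, rfl⟩, by group⟩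
      rw [Equiv.Perm.mul_apply, show w' r44 = w r44 from Fin.ext (e'.trans e.symm)]
      simp
    · rw [Subgroup.card_map_of_injective (MulAut.conj m).injective, sq, ← Nat.card_prod]
      exact Nat.card_le_card_of_injective (fun p => ⟨u p, hu p⟩) fun a b e => hi (congrArg Subtype.val e)
  have h3 : {y | ∃ g, g * z * g⁻¹ = y} ⊆ ⋃ r ∈ ({44, 40, 36, 28, 19, 11, 7, 3} : Finset ℕ), C r := by
    rintro _ ⟨g, rfl⟩
    obtain ⟨w, hw, m, u, v, hm, hu, hv, rfl⟩ := E.bruhat g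
    refine Set.mem_biUnion (x := (w r44 : ℕ)) (by simpa using orbit_F4 h hw) ⟨w, hw, m, u, hU.mpr hu, hm, rfl, ?_⟩
    rw [mul_assoc (u * m), (hc v (hU.mpr (Uw_le_U _ _ hv)) z hz).eq]
    group
  refine le_trans (Nat.mul_le_mul_right _ ((Set.ncard_le_ncard h3).trans (Finset.set_ncard_biUnion_le _ _))) ?_
  rw [Finset.sum_mul]
  exact (Finset.sum_le_card_nsmul _ _ _ fun r _ => h2 r).trans (by rw [smul_eq_mul]; exact Nat.mul_le_mul_right _ (by decide))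

end

theorem main {K : Type*} [Field K] [Finite K] [CharP K 2] {φ : K →+* K} {e : ℕ} (hφ : ∀ t, φ t = t ^ e)
    (hφ2 : ∀ t, φ (φ t) ^ 2 = t) {σ : chevF4.group K →* chevF4.group K} (h : IsTw chevF4 twF4 (xG chevF4 K) φ σ)
    {Γ : Type*} [Group Γ] {f : Γ →* chevF4.group K} (E : h.fold.Emb f) (hfix : ∀ g, σ g = g → g ∈ f.range)
    {r : ℕ} (hr : 3 ≤ r) (hK : Nat.card K = 2 ^ r) {Ω : Type*} [Finite Ω] [Nonempty Ω] [MulAction Γ Ω]
    [FaithfulSMul Γ Ω] (h2 : T2.Two Γ Ω) : ¬ ∀ a b : Ω, ∃ g : Γ, f g ∈ h.chv.rel.pre.B ∧ g • a = b := by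
  intro hB
  have := Fintype.ofFinite K
  have := IsTw.finite_of_emb h (GS_xG chevF4 K) E
  set S := h.filt levOK_F4 E
  obtain ⟨Rs, eR, o1, o2, -⟩ := h.classes_F4 E hfix
  obtain ⟨z, Rs, rfl, ez, eR⟩ := List.map_eq_cons_iff.mp eR
  obtain ⟨y, Rs, rfl, ey, eR⟩ := List.map_eq_cons_iff.mp eR
  obtain rfl := List.map_eq_nil_iff.mp eR
  have hz : z ∈ S.F 11 := h.mem_F_word levOK_F4 E (v := 0) (w := oneW [47, 44]) (ez.trans (evS_oneW 0 _).symm)
    (by decide +kernel)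
  have hy : y ∈ S.F 9 := h.mem_F_word levOK_F4 E (v := 0) (w := oneW [39, 45]) (ey.trans (evS_oneW 0 _).symm)
    (by decide +kernel)
  have hz1 : z ≠ 1 := fun e => by simpa [e] using o1 z (by simp)
  have top : S.F 12 = ⊥ := S.top
  have c11 : Nat.card (S.F 11) = 2 ^ r := by
    rw [card_filt S (show 11 < 12 by decide) fun t => ?_, top, Subgroup.card_bot, hK, mul_one]
    have h0 : S.c 11 z ≠ 0 := fun e => hz1 (by simpa [top] using (S.c_eq_zero 11 (show 11 < 12 by decide) z hz).mp e)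
    by_cases ht : t = 0
    · exact ⟨1, one_mem _, (Filt.c_one (show 11 < 12 by decide)).trans ht.symm⟩
    obtain ⟨g, hg, e⟩ := h.scale_F4 hφ hφ2 E (GS_xG chevF4 K) ChevM.center_eq_bot (i := 11) (by decide) _
      (div_ne_zero ht h0)
    exact ⟨_, S.H_F g hg 11 z hz, by rw [S.c_conj g hg 11 (show 11 < 12 by decide) z hz, e, div_mul_cancel₀ _ h0]⟩
  have cs : ∀ i < 11, i ≠ 4 → Nat.card (S.F i) = 2 ^ r * Nat.card (S.F (i + 1)) := fun i hi h4 => by
    rw [card_filt S (show i < 12 by omega) (OrdB.surj_F4 h hφ2 E (by omega) h4 hi.ne), hK]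
  have c10 := cs 10 (by decide) (by decide)
  have c9 := cs 9 (by decide) (by decide)
  have c8 := cs 8 (by decide) (by decide)
  have c7 := cs 7 (by decide) (by decide)
  norm_num only at c7 c8 c9 c10
  rw [c11] at c10
  rw [c10] at c9
  rw [c9] at c8
  rw [c8] at c7
  have hp : ∀ i (a : Ω), ∃ k, Nat.card ↥(S.F i ⊓ stabilizer Γ a) = 2 ^ k := fun i a =>
    IsPGroup.iff_card.mp ((h.isPGroup_U E 2 repF4).to_le
      (inf_le_left.trans ((S.le_zero i).trans (h.filt_F_zero levOK_F4 E).le)))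
  have hq : 8 ≤ 2 ^ r := Nat.pow_le_pow_right two_pos hr
  have ha := part_tw h levOK_F4 E hB (i := repF4 0) (j := 10) (k := 11) (l := 12) (by decide) (by decide)
    (ab_Lv.mono (Lv_mono (by decide))).closed
    (fun s => by rw [mem_Lv_iff, mem_Lv_iff, s0_F4]; revert s; decide +kernel)
    (fun s => by rw [mem_Lv_iff, mem_Lv_iff, s0_F4]; revert s; decide +kernel)
    (fun s => by rw [mem_Lv_iff, mem_Lv_iff, mem_Lv_iff, s0_F4]; revert s; decide +kernel)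
    (fam_a h hφ2 E).choose_spec.1 (fam_a h hφ2 E).choose_spec.2 (by
      rw [c10, c11, top, Subgroup.card_bot, hK]; exact le_of_eq (by ring))
  have hb := part_tw h levOK_F4 E hB (i := repF4 1) (j := 7) (k := 9) (l := 11) (by decide) (by decide) ab_Lv.closed
    (fun s => by rw [mem_Lv_iff, mem_Lv_iff, h.s_F4]; revert s; decide +kernel)
    (fun s => by rw [mem_Lv_iff, mem_Lv_iff, h.s_F4]; revert s; decide +kernel)
    (fun s => by rw [mem_Lv_iff, mem_Lv_iff, mem_Lv_iff, h.s_F4]; revert s; decide +kernel)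
    (fam_b h hφ2 E).choose_spec.1 (fam_b h hφ2 E).choose_spec.2 (by
      rw [c7, c9, c11, Nat.card_prod, hK]; exact le_of_eq (by ring))
  simp only [top, bot_inf_eq, Subgroup.card_bot, hK, Nat.card_prod, S] at ha hb
  have h11 : ∀ a : Ω, Nat.card ↥(S.F 11 ⊓ stabilizer Γ a) = 1 := fun a => by
    obtain ⟨i, hi⟩ := hp 11 a
    obtain ⟨j, hj⟩ := hp 10 a
    have h3 := ha a
    rw [hi, hj] at h3
    rcases pow_arith (i := i) (j := j) (r := r) (by linarith) (by omega) with rfl | rfl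
    · exact hi
    have h4 : S.F 11 ⊓ stabilizer Γ a = S.F 11 := Subgroup.eq_of_le_of_card_ge inf_le_left (by rw [hi, c11])
    refine absurd (FaithfulSMul.eq_of_smul_eq_smul (α := Ω) fun b => ?_) hz1
    obtain ⟨g, hg, rfl⟩ := hB a b
    have h5 : (g⁻¹ * z * g⁻¹⁻¹) • a = a :=
      (h4.ge (conjLe_B h levOK_F4 E (g := g⁻¹) (by simpa using hg) 11 z hz)).2
    rwa [inv_inv, mul_smul, mul_smul, inv_smul_eq_iff, ← one_smul Γ (g • a), smul_smul z, mul_one] at h5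
  have h9 : ∀ a : Ω, S.F 9 ⊓ stabilizer Γ a = ⊥ := fun a => by
    obtain ⟨i, hi⟩ := hp 9 a
    obtain ⟨j, hj⟩ := hp 7 a
    have h3 := hb a
    have h4 := ha a
    rw [hi, hj, h11] at h3
    rw [h11] at h4
    have h5 : S.F 10 ⊓ stabilizer Γ a = ⊥ := Subgroup.card_eq_one.mp (by linarith)
    rcases pow_arith (i := i) (j := j) (r := r + r) (by rw [pow_add]; linarith) (by omega) with rfl | rfl
    · exact Subgroup.card_eq_one.mp hi
    have h6 := card_mul_le (A := S.F 9 ⊓ stabilizer Γ a) inf_le_left (S.anti 9) fun g hg hg' =>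
      Subgroup.mem_bot.mp (h5.le ⟨hg', hg.2⟩)
    rw [hi, c9, c10, pow_add, mul_comm (2 ^ r) (2 ^ r * 2 ^ r)] at h6
    have h7 := Nat.le_of_mul_le_mul_left h6 (by positivity)
    nlinarith
  have hinv : ∀ t : Γ, orderOf t = 2 → ∀ a : Ω, t • a ≠ a := fun t ht a e => by
    obtain ⟨s, hs, h3⟩ := o2 t ht
    obtain ⟨c, rfl⟩ := isConj_iff.mp h3
    have h4 : c * t * c⁻¹ ∈ S.F 9 := by
      simp only [List.mem_cons, List.not_mem_nil, or_false] at hs
      rcases hs with e | e <;> rw [e]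
      exacts [S.F_mono (by decide) hz, hy]
    have h5 := Subgroup.mem_bot.mp ((h9 (c • a)).le ⟨h4, show _ • _ = _ by simp [mul_smul, e]⟩)
    simp [conj_eq_one_iff.mp h5] at ht
  obtain ⟨a⟩ := ‹Nonempty Ω›
  have h0 : Nat.card (S.F 0) ≤ Nat.card Ω := by
    obtain ⟨k, hk⟩ := hp 0 a
    have h3 := T2.ncard_orbit_mul (S.F 0) a
    rcases k with _ | k
    · rw [hk, pow_zero, mul_one] at h3
      exact h3 ▸ Set.ncard_le_card _
    obtain ⟨t, ht⟩ := exists_prime_orderOf_dvd_card' (G := ↥(S.F 0 ⊓ stabilizer Γ a)) 2 (hk ▸ dvd_pow_self 2 k.succ_ne_zero)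
    exact absurd t.2.2 (hinv t (by rw [Subgroup.orderOf_coe, ht]) a)
  have h3 := card_sub_one_le h2 (hinv z (o1 z (by simp)) a)
  have h4 := ncard_class h hφ2 E hz hz1
  have h5 : Nat.card (S.F 9) ≤ Nat.card (S.F 0) := Subgroup.card_le_of_le (S.le_zero 9)
  rw [c11, hK] at h4
  rw [c9] at h5
  obtain ⟨q, e⟩ := Nat.exists_eq_add_of_le hq
  rw [e] at h4 h5
  rw [show 8 + q - 1 = 7 + q by omega] at h4
  generalize Nat.card (S.F 0) = u at h0 h4 h5
  generalize {y | ∃ g, g * z * g⁻¹ = y}.ncard = c at h3 h4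
  have h6 : u * (8 + q) ^ 2 ≤ 8 * (u * (7 + q)) + (8 + q) ^ 2 := by nlinarith
  nlinarith [Nat.zero_le (u * q), Nat.zero_le (u * q ^ 2), Nat.zero_le (q ^ 3)]

end TF

theorem not_B_TF4 {K : Type*} [Field K] [Fintype K] {m : ℕ} (hm : 1 ≤ m) (hK : Fintype.card K = 2 ^ (2 * m + 1))
    {Ω : Type*} [Finite Ω] [Nontrivial Ω] [MulAction (twistedF4 K (2 ^ m)) Ω] [FaithfulSMul (twistedF4 K (2 ^ m)) Ω]
    (h2 : T2.Two (twistedF4 K (2 ^ m)) Ω) : ¬ ∀ a b : Ω, ∃ g : twistedF4 K (2 ^ m),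
      wordIncl chevF4 (f4Words K (2 ^ m)) g ∈ (PG chevF4 K).B ∧ g • a = b := by
  obtain ⟨_, φ, hφ, hφ2⟩ := exists_frob_F4 hK
  exact TF.main hφ hφ2 (isTw_adj (twOK_F4 K) φ) (emb_twistedF4 φ hφ hφ2)
    (fun g e => mem_range_wordIncl.mpr ((mem_twistedF4_iff φ hφ hφ2).mpr e)) (r := 2 * m + 1) (by omega)
    (Nat.card_eq_fintype_card.trans hK) h2

end Cfsg.Agent.T2X
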