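import Cfsg.Agent.Lib.T2X.A
import Cfsg.Agent.Lib.RD.H

/-! The centraliser of a long root subgroup and its unipotent radical. -/

set_option autoImplicit false
set_option linter.unusedSectionVars false

namespace Cfsg.Agent.T2X

open MulAction Finset T2 Chev RD RSys PreRGD

variable {ι I : Type*} [Fintype I] [DecidableEq I] [Fintype ι] [DecidableEq ι] {R : RSys ι I}
  {G : Type*} [Group G] [Finite G] {P : PreRGD R G} {θ α β γ δ r s k : ι} {i j : I} {x y z : G}

theorem ht_ind {C : ι → Prop} (R : RSys ι I) (h : ∀ r, (∀ s, R.ht r < R.ht s → C s) → C r) (r : ι) : C r :=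
  have : IsTrans ι fun a b => R.ht b < R.ht a := ⟨fun _ _ _ h h' => h'.trans h⟩
  have : Std.Irrefl fun a b => R.ht b < R.ht a := ⟨fun _ => lt_irrefl _⟩
  (Finite.wellFounded_of_trans_of_irrefl fun a b => R.ht b < R.ht a).induction r h

theorem card_Uw_sref (hP : P.Nondeg) {w : Equiv.Perm ι} (hw : w ∈ R.W) (h : R.IsPos (w⁻¹ (R.simple i))) :
    Nat.card (P.Uw (R.sref i * w)) = Nat.card (P.X (R.simple i)) * Nat.card (P.Uw w) := by
  classical
  have hw' := mul_mem (R.sref_mem_W i) hw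
  rw [Uw, Uw, hP.card_US (halfSpace_of_pos fun _ h => h.1) (closed_pos_and_not (R.W_le_Aut hw')),
    hP.card_US (halfSpace_of_pos fun _ h => h.1) (closed_pos_and_not (R.W_le_Aut hw)),
    ← card_X_map (inv_mem hw) (R.simple i), ← prod_insert (f := fun r => Nat.card (P.X r)) (by simp [h, R.isPos_simple])]
  congr 1
  ext r
  simp only [mem_filter, mem_univ, true_and, mem_insert, Set.mem_setOf_eq, Equiv.Perm.mul_apply]
  by_cases e : r = w⁻¹ (R.simple i)
  · simpa [e, R.sref_simple, not_isPos_neg_simple] using h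
  · rw [or_iff_right e]
    refine and_congr_right fun hr => not_congr (isPos_sref_iff (fun e' => e (by simp [← e'])) fun e' => ?_)
    rw [show r = R.neg (w⁻¹ (R.simple i)) by rw [← Aut.neg_apply (R.W_le_Aut (inv_mem hw)), ← e']; simp] at hr
    exact isPos_neg_iff.1 hr h

theorem pair_eq_rc (hθ : ∀ m, R.pair θ (R.simple m) = if m = j then 1 else 0) (r : ι) :
    R.pair θ r = R.rc r j := by
  rw [pair_eq_sum']; simp [hθ]

theorem fix_of_WJ (hθ : ∀ m, R.pair θ (R.simple m) = if m = j then 1 else 0) {w : Equiv.Perm ι}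
    (hw : w ∈ R.WJ {j}ᶜ) : w θ = θ := by
  refine Subgroup.closure_induction (p := fun w _ => w θ = θ) ?_ rfl
    (fun a b _ _ ha hb => by simp [ha, hb]) (fun a _ ha => Equiv.Perm.inv_eq_iff_eq.2 ha.symm) hw
  rintro _ ⟨i, hi, rfl⟩
  rw [← refl_simple]
  exact R.refl_eq_self_of_pair (R.pair_eq_zero_comm.1 (by rw [hθ, if_neg (show i ≠ j from hi)]))

theorem inSub_iff : R.InSub {j}ᶜ r ↔ R.rc r j = 0 := by simp [InSub]

theorem index_PJ (hP : P.Nondeg) (hf : P.full = ⊤) (hθ : ∀ m, R.pair θ (R.simple m) = if m = j then 1 else 0)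
    {S : Finset ι} {wt : ι → ℕ} (h0 : θ ∈ S) (h0' : wt θ = 1) (h1 : ∀ r ∈ S, ∀ i, R.sref i r ∈ S)
    (h2 : ∀ r ∈ S, r = θ ∨ ∃ i, R.pair (R.simple i) r < 0 ∧ wt r = Nat.card (P.X (R.simple i)) * wt (R.sref i r)) :
    (P.PJ {j}ᶜ).index = ∑ r ∈ S, wt r := by
  classical
  let T : ι → ℕ := fun r => ∑ w ∈ (univ.filter (· ∈ R.WJ Set.univ)).filter (fun w => w θ = r), Nat.card (P.Uw w)
  have e2 : ∀ r, r ∈ S → T r = wt r * ∑ w ∈ univ.filter (· ∈ R.WJ {j}ᶜ), Nat.card (P.Uw w) := by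
    refine ht_ind R fun r ih hr => ?_
    rcases h2 r hr with rfl | ⟨i, h3, h4⟩
    · rw [h0', one_mul]
      refine sum_congr (Finset.ext fun w => ?_) fun _ _ => rfl
      simp only [mem_filter, mem_univ, true_and, WJ_univ]
      refine ⟨fun ⟨h3, h4⟩ => mem_WJ_of_invs h3 fun s hs => inSub_iff.2 ?_, fun h => ⟨R.WJ_le_W _ h, fix_of_WJ hθ h⟩⟩
      have h5 := Aut.pair_apply (R.W_le_Aut h3) r s
      rw [h4, pair_eq_rc hθ, pair_eq_rc hθ] at h5
      rw [mem_invs] at hs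
      have h6 := hs.1 j
      have h7 := rc_nonpos_of_not_isPos hs.2 j
      simp only [Pi.zero_apply] at h6 h7
      omega
    · rw [h4, mul_assoc, ← ih _ (by rw [ht_sref]; omega) (h1 r hr i), mul_sum]
      have h7 : ∀ w, w ∈ R.W → R.sref i * w ∈ R.W := fun w => mul_mem (R.sref_mem_W i)
      refine (sum_bij' (fun w _ => R.sref i * w) (fun w _ => R.sref i * w) ?_ ?_ ?_ ?_ ?_).symm <;>
        simp only [mem_filter, mem_univ, true_and, and_imp, WJ_univ]
      · exact fun w hw e => ⟨h7 w hw, by simp [e]⟩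
      · exact fun w hw e => ⟨h7 w hw, by simp [e]⟩
      · exact fun w _ _ => by rw [← mul_assoc, sref_mul_self, one_mul]
      · exact fun w _ _ => by rw [← mul_assoc, sref_mul_self, one_mul]
      · intro w hw e
        refine (card_Uw_sref hP hw (isPos_of_coord (i := j) ?_)).symm
        rw [← pair_eq_rc hθ, ← Aut.pair_apply (R.W_le_Aut hw), e, show w (w⁻¹ (R.simple i)) = R.simple i by simp,
          ← Aut.pair_apply (R.sref_mem_Aut i), sref_sref, sref_simple, pair_neg_right, neg_pos]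
        exact R.pair_neg_comm.1 h3
  have e3 : ∀ w ∈ R.W, w θ ∈ S := fun w hw => W_induction_left (P := fun w => w θ ∈ S) h0
    (fun w _ i _ h => h1 _ h i) hw
  refine Nat.eq_of_mul_eq_mul_right (Nat.card_pos (α := P.PJ {j}ᶜ)) ?_
  rw [Subgroup.index_mul_card, ← Subgroup.card_top (G := G), ← hf, full, hP.card_PJ, hP.card_PJ, ← mul_sum, ← mul_sum,
    mul_left_comm, sum_mul, ← sum_fiberwise_of_maps_to (g := fun w => w θ) (t := S) fun w hw => e3 w (by
      simpa [WJ_univ] using hw)]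
  exact congrArg _ (sum_congr rfl e2)

variable (R) in
/-- the highest root, attached to one node -/
structure Hi (θ : ι) (j : I) : Prop where
  lg : Lg R θ
  pr : ∀ m, R.pair θ (R.simple m) = if m = j then 1 else 0
  p1 : R.pair (R.simple j) θ = 1
  top : ∀ k, R.ht θ ≤ R.ht k + 1 → k = θ ∨ k = R.sref j θ

theorem conj_H (L : LD P) (hα : Lg R α) (hx : x ∈ P.X α) (hx1 : x ≠ 1) (hy : y ∈ P.X α) (hy1 : y ≠ 1) :
    ∃ h ∈ P.H, h⁻¹ * x * h = y := by
  classical
  obtain ⟨s, h1, h2, h3⟩ := L.tor hα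
  have := Fintype.ofFinite (P.X α)
  let _ : CommGroup (P.X α) := { (inferInstance : Group (P.X α)) with
    mul_comm := fun a b => Subtype.ext (X_comm α _ a.2 _ b.2) }
  let c : s → P.X α →* P.X α := fun h => MonoidHom.mk' (fun u => ⟨h.1⁻¹ * u * h, P.H_inv_conj_X (h2 _ h.2) α u.2⟩)
    fun a b => Subtype.ext (by simp [mul_assoc])
  have h4 : Function.Injective fun h : s => (⟨c h ⟨x, hx⟩, fun e => hx1 (by
      simpa [c, mul_assoc, inv_mul_eq_iff_eq_mul] using congrArg Subtype.val e)⟩ : {u : P.X α // u ≠ 1}) := by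
    intro h h' e
    by_contra hne
    have h5 : Function.Surjective (c h / c h') := fun z => by
      obtain ⟨u, hu, e⟩ := h3 h h.2 h' h'.2 (fun e => hne (Subtype.ext e)) z z.2
      exact ⟨⟨u, hu⟩, Subtype.ext (by rw [e, MonoidHom.div_apply, div_eq_mul_inv]; rfl)⟩
    exact hx1 (congrArg Subtype.val ((injective_iff_map_eq_one _).1 (Finite.injective_iff_surjective.2 h5) ⟨x, hx⟩
      (div_eq_one.2 (congrArg Subtype.val e))))
  obtain ⟨h, e⟩ := ((Fintype.bijective_iff_injective_and_card _).2 ⟨h4, by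
    rw [Fintype.card_subtype_compl, Fintype.card_subtype_eq, ← Nat.card_eq_fintype_card (α := P.X α), ← h1]
    simp⟩).2 ⟨⟨y, hy⟩, fun e => hy1 (congrArg Subtype.val e)⟩
  exact ⟨h, h2 _ h.2, congrArg (·.1.1) e⟩

theorem isConj_H (L : LD P) (hα : Lg R α) (hx : x ∈ P.X α) (hx1 : x ≠ 1) (hy : y ∈ P.X α) (hy1 : y ≠ 1) :
    IsConj x y :=
  let ⟨h, _, e⟩ := conj_H L hα hx hx1 hy hy1
  isConj_iff.2 ⟨h⁻¹, by rw [inv_inv, e]⟩

theorem nz_B_US {S : Set ι} (hS : R.Ideal {r | R.IsPos r} S) (hS' : ∀ r ∈ S, R.IsPos r) : Nz P.B (P.US S) :=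
  fun _ hb _ hu => B_conj_US hS hS' hb hu

theorem pg_US (hP : P.Nondeg) {p : ℕ} (hp : ∀ r, ∃ k, Nat.card (P.X r) = p ^ k) {S : Set ι}
    (hS : ∀ r ∈ S, R.IsPos r) : IsPGroup p (P.US S) := by
  classical
  choose k hk using hp
  refine (IsPGroup.of_card (n := ∑ r with r ∈ {r | R.IsPos r}, k r) ?_).to_le (USub_mono (T := {r | R.IsPos r}) hS)
  rw [hP.card_US halfSpace_pos closed_pos, ← prod_pow_eq_pow_sum]
  exact prod_congr rfl fun r _ => hk r

namespace Hi
variable (h : Hi R θ j)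
include h

theorem pair_eq (r : ι) : R.pair θ r = R.rc r j := pair_eq_rc h.pr r

theorem rc_θ : R.rc θ j = 2 := by rw [← h.pair_eq, pair_self]

theorem pos : R.IsPos θ := isPos_of_coord (i := j) (by rw [h.rc_θ]; norm_num)

theorem rc_add : R.rc θ = R.rc (R.simple j) + R.rc (R.sref j θ) := by
  rw [rc_sref, h.p1, R.rc_simple]; simp

theorem ht_γ : R.ht (R.sref j θ) + 1 = R.ht θ := by rw [ht_sref, h.p1]; ring

theorem rc_γ : R.rc (R.sref j θ) j = 1 := by
  have := congrFun h.rc_add j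
  rw [h.rc_θ, Pi.add_apply, R.rc_simple, Pi.single_eq_same] at this
  omega

theorem pos_γ : R.IsPos (R.sref j θ) := isPos_of_coord (i := j) (by rw [h.rc_γ]; norm_num)

theorem ne_γ : R.sref j θ ≠ θ := fun e => by have := h.ht_γ; rw [e] at this; omega

theorem ht_le (k : ι) : R.ht k ≤ R.ht θ := by
  have := h.ht_γ
  by_contra e
  rcases h.top k (by omega) with rfl | rfl <;> omega

theorem eq_of_ht (hk : R.ht θ ≤ R.ht k) : k = θ :=
  (h.top k (by omega)).resolve_right fun e => by have := h.ht_γ; rw [e] at hk; omega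

theorem rc_le (hr : r ≠ θ) : R.rc r j ≤ 1 := h.pair_eq r ▸ h.lg r hr

theorem ideal_Z : R.Ideal {r | R.IsPos r} {θ} := fun r hr s hs k hk => by
  have := ht_lt_of_intv hr (hs ▸ h.pos) hk
  have := IsPos.ht_pos hr
  exact h.eq_of_ht (by rw [← hs]; omega)

theorem ideal_E : R.Ideal {r | R.IsPos r} {θ, R.sref j θ} := fun r hr s hs k hk => by
  have := IsPos.ht_pos hr
  have := h.ht_γ
  rcases hs with rfl | rfl
  · exact h.top k (by have := ht_lt_of_intv hr h.pos hk; omega)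
  · exact h.top k (by have := ht_lt_of_intv hr h.pos_γ hk; omega)

theorem pos_E : ∀ r ∈ ({θ, R.sref j θ} : Set ι), R.IsPos r := by
  rintro _ (rfl | rfl)
  exacts [h.pos, h.pos_γ]

theorem nz_Z : Nz (P.PJ {j}ᶜ) (P.X θ) := by
  refine Nz.sup (by simpa using nz_B_US (P := P) h.ideal_Z (by simpa using h.pos)) (nz_of_le ?_)
  rw [Subgroup.closure_le]
  rintro _ ⟨i, hi, rfl⟩
  have e := fix_of_WJ h.pr (R.sref_mem_WJ hi)
  exact Subgroup.mem_normalizer_iff.2 fun x => ⟨fun hx => e ▸ P.n_conj_X i θ x hx,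
    fun hx => by simpa [mul_assoc, e] using P.n_inv_conj_X i θ hx⟩

theorem comm_Z (hz : z ∈ P.X θ) (hx : x ∈ P.U) : Commute z x := by
  have := U_comm_X h.pos hz hx
  rw [show {s | R.IsPos s ∧ R.ht θ < R.ht s} = ∅ from Set.eq_empty_of_forall_notMem fun s hs =>
    (h.ht_le s).not_gt hs.2, US, USub_empty, Subgroup.mem_bot] at this
  have e : x * z = z * x := by rw [← mul_one (z * x), ← this]; group
  exact e.symm

theorem mem_E (hx : x ∈ P.US {θ, R.sref j θ}) : ∃ a ∈ P.X θ, ∃ b ∈ P.X (R.sref j θ), x = a * b := by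
  simpa using (P.commOn_halfSpace (halfSpace_of_pos h.pos_E)).exists_mul (halfSpace_of_pos h.pos_E)
    (h.ideal_E.closed h.pos_E) (A := {θ}) (B := {R.sref j θ}) rfl hx

theorem conj_E (L : LD P) (hx : x ∈ P.US {θ, R.sref j θ}) (hx1 : x ≠ 1) (hy : y ∈ P.X θ) (hy1 : y ≠ 1) :
    IsConj x y := by
  obtain ⟨a, ha, b, hb, rfl⟩ := h.mem_E hx
  by_cases e : b = 1
  · rw [e, mul_one] at hx1 ⊢
    exact isConj_H L h.lg ha hx1 hy hy1
  obtain ⟨u, -, rfl⟩ := L.heis h.lg h.rc_add (by rw [h.pr, if_pos rfl]) b hb e a ha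
  refine IsConj.trans (isConj_iff.2 ⟨P.n j * u⁻¹, ?_⟩) (isConj_H L h.lg (by simpa using P.n_conj_X j _ b hb)
    (by simpa using e) hy hy1)
  group

variable {Ω : Type*} [MulAction G Ω] [Finite Ω] [Nontrivial Ω] [FaithfulSMul G Ω] {p : ℕ} [hp : Fact p.Prime]
  (hP : P.Nondeg) (L : LD P) (hc : ∀ r, ∃ k, Nat.card (P.X r) = p ^ k) (hB : Trs Ω P.B)
include hP

theorem card_E : Nat.card (P.US {θ, R.sref j θ}) = Nat.card (P.X θ) ^ 2 := by
  classical
  rw [hP.card_US (halfSpace_of_pos h.pos_E) (h.ideal_E.closed h.pos_E),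
    show univ.filter (· ∈ ({θ, R.sref j θ} : Set ι)) = {θ, R.sref j θ} by ext; simp,
    prod_pair h.ne_γ.symm, card_X_map (R.sref_mem_W j), sq]

include L hc hB

theorem fx_Z (hy : y ∈ P.X θ) (hy1 : y ≠ 1) : fx Ω y = 0 :=
  fx_line hB (h.nz_Z.mono (P.B_le_PJ _)) (nz_B_US h.ideal_E h.pos_E)
    (let ⟨_, e⟩ := hc θ; .of_card e) (pg_US hP hc h.pos_E) rfl (h.card_E hP)
    (Finite.one_lt_card_iff_nontrivial.2 ((Subgroup.nontrivial_iff_ne_bot _).2 (hP.X_ne_bot θ))) hy1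
    (fun _ hx hx1 => isConj_H L h.lg hx hx1 hy hy1) fun _ hx hx1 => h.conj_E L hx hx1 hy hy1

theorem semi_E : Semi Ω (P.US {θ, R.sref j θ}) := semi_of_fx fun _ hx hx1 =>
  let ⟨_, hy, hy1⟩ := L.ne θ
  (fx_conj (h.conj_E L hx hx1 hy hy1)).trans (h.fx_Z hP L hc hB hy hy1)

theorem semi_Z : Semi Ω (P.X θ) := (h.semi_E hP L hc hB).mono (le_USub (by simp))

theorem exists_lam (h2 : Two G Ω) :
    ∃ l, (Nat.card Ω - 1) * l = (P.PJ {j}ᶜ).index * (Nat.card (P.X θ) - 1) := by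
  obtain ⟨a⟩ := (inferInstance : Nonempty Ω)
  exact (h.semi_Z hP L hc hB).ob a ▸ h2.exists_lam h.nz_Z (hB.mono (P.B_le_PJ _)) a

end Hi

end Cfsg.Agent.T2X
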