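import Cfsg.Agent.Lib.T2X.B

/-! Transitivity of the unipotent radical and the final contradiction. -/

set_option autoImplicit false
set_option linter.unusedSectionVars false

namespace Cfsg.Agent.T2X

open MulAction Finset T2 Chev RD RSys PreRGD

variable {ι I : Type*} [Fintype I] [DecidableEq I] [Fintype ι] [DecidableEq ι] {R : RSys ι I}
  {G : Type*} [Group G] [Finite G] {P : PreRGD R G} {θ α β γ δ r s k : ι} {i j : I} {x y z : G}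
  {A S T : Set ι} {M N Q : Subgroup G} {J : Set I}

theorem US_mono (hx : x ∈ P.US S) (h : ∀ s ∈ S, s ∈ T) : x ∈ P.US T := USub_mono h hx

theorem comm_mem' (hA : Nz (P.US A) M) (hS : Nz (P.US S) M)
    (h : ∀ r ∈ A, ∀ s ∈ S, ∀ x ∈ P.X r, ∀ y ∈ P.X s, x * y * x⁻¹ * y⁻¹ ∈ M) (hx : x ∈ P.US A) (hy : y ∈ P.US S) :
    x * y * x⁻¹ * y⁻¹ ∈ M := by
  refine USub_induction (C := fun x => x * y * x⁻¹ * y⁻¹ ∈ M) hx (fun r hr x hx => ?_) (by simp)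
    fun a b ha _ c1 c2 => by simpa [mul_assoc] using mul_mem (hA a ha _ c2) c1
  exact USub_induction (C := fun y => x * y * x⁻¹ * y⁻¹ ∈ M) hy (fun s hs => h r hr s hs x hx) (by simp)
    fun a b ha _ c1 c2 => by simpa [mul_assoc] using mul_mem c1 (hS a ha _ c2)

theorem comm_mem (hA : Nz (P.US A) M) (hS : Nz (P.US S) M)
    (h : ∀ r ∈ A, ∀ s ∈ S, s ≠ R.neg r ∧ ∀ k ∈ R.intv r s, P.X k ≤ M) (hx : x ∈ P.US A) (hy : y ∈ P.US S) :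
    x * y * x⁻¹ * y⁻¹ ∈ M :=
  comm_mem' hA hS (fun r hr s hs x hx y hy => USub_le_iff.2 (h r hr s hs).2 (P.comm r s (h r hr s hs).1 x hx y hy))
    hx hy

theorem nz_bot (B : Subgroup G) : Nz B ⊥ := fun _ _ _ h => by simp [Subgroup.mem_bot.1 h]

theorem nz_US (hA : ∀ r ∈ A, R.IsPos r) (hT : ∀ r ∈ T, R.IsPos r) (h : R.Ideal A T) : Nz (P.US A) (P.US T) :=
  nz_of_le ((P.commOn fun r hr s hs => ne_neg_of_pos (hT s hs) (hA r hr)).le_normalizer h)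

theorem split (hS : ∀ r ∈ S, R.IsPos r) (hc : R.Closed S) (hβ : β ∈ S) (hy : y ∈ P.US S) :
    ∃ a ∈ P.X β, ∃ b ∈ P.US (S \ {β}), y = a * b := by
  simpa using (P.commOn_halfSpace (halfSpace_of_pos hS)).exists_mul (halfSpace_of_pos hS) hc (A := {β})
    (B := S \ {β}) (by simpa using hβ) hy

theorem lead (hT : R.Ideal {r | R.IsPos r} T) (hy' : y ∉ P.US T) : ∀ S : Set ι, R.Ideal {r | R.IsPos r} S →
    (∀ r ∈ S, R.IsPos r) → T ⊆ S → y ∈ P.US S → ∃ β ∈ S, β ∉ T ∧ ∃ a ∈ P.X β, a ≠ 1 ∧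
      ∃ b ∈ P.US {s | s ∈ S ∧ s ≠ β ∧ (s ∈ T ∨ R.ht β ≤ R.ht s)}, y = a * b := by
  intro S
  induction hn : S.ncard using Nat.strong_induction_on generalizing S with
  | _ n ih =>
  intro h1 h2 h3 hy
  obtain ⟨β, ⟨h4, h5⟩, h6⟩ := Set.exists_min_image (S \ T) R.ht (Set.toFinite _) (Set.nonempty_iff_ne_empty.2
    fun e => hy' (USub_mono (Set.sdiff_eq_empty.1 e) hy))
  obtain ⟨a, ha, b, hb, e⟩ := split h2 (h1.closed h2) h4 hy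
  have h7 : ∀ s ∈ S, s ∈ T ∨ R.ht β ≤ R.ht s := fun s hs => or_iff_not_imp_left.2 fun e => h6 s ⟨hs, e⟩
  by_cases ha1 : a = 1
  · obtain ⟨β', c1, c2, a, c3, c4, b, c5, c6⟩ := ih _ (hn ▸ Set.ncard_sdiff_singleton_lt_of_mem h4) (S \ {β}) rfl
      (fun r hr s hs k hk => ⟨h1 r hr s hs.1 hk, by
        rintro rfl
        rcases h7 s hs.1 with e | e
        · exact h5 (hT r hr s e hk)
        · have := ht_lt_of_intv hr (h2 s hs.1) hk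
          have := IsPos.ht_pos hr
          omega⟩) (fun r hr => h2 r hr.1) (fun r hr => ⟨h3 hr, by rintro rfl; exact h5 hr⟩)
      (by rwa [e, ha1, one_mul])
    exact ⟨β', c1.1, c2, a, c3, c4, b, US_mono c5 fun s hs => ⟨hs.1.1, hs.2⟩, c6⟩
  · exact ⟨β, h4, h5, a, ha, ha1, b, US_mono hb fun s hs => ⟨hs.1, hs.2, h7 s hs.1⟩, e⟩

theorem pow_dvd_of_le {p a b i j : ℕ} (hp : p.Prime) (ha : a = p ^ i) (hb : b = p ^ j) (h : a ≤ b) : a ∣ b := by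
  subst ha hb
  exact pow_dvd_pow p ((Nat.pow_le_pow_iff_right hp.one_lt).1 h)

theorem mem_SQ : (R.IsPos r ∧ ¬ R.InSub {j}ᶜ r) ↔ 0 < R.rc r j :=
  ⟨fun h => (h.1 j).lt_of_ne' (mt inSub_iff.2 h.2), fun h => ⟨isPos_of_coord h, mt inSub_iff.1 h.ne'⟩⟩

theorem UJ_eq (P : PreRGD R G) (j : I) : P.UJ {j}ᶜ = P.US {r | 0 < R.rc r j} :=
  congrArg P.US (Set.ext fun _ => mem_SQ)

theorem ideal_Q (j : I) : R.Ideal {r | R.IsPos r} {r | 0 < R.rc r j} := fun r hr s hs k hk => by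
  have := le_of_intv hr (isPos_of_coord hs) hk j
  have := hr j
  simp only [Pi.add_apply, Pi.zero_apply, Set.mem_ofPred_eq] at *
  omega

theorem ideal_Q_ht (j : I) (n : ℤ) : R.Ideal {r | R.IsPos r} {r | 0 < R.rc r j ∧ n < R.ht r} := fun r hr s hs k hk =>
  ⟨ideal_Q j r hr s hs.1 hk, (ideal_ht_gt n r hr s ⟨isPos_of_coord hs.1, hs.2⟩ hk).2⟩

theorem nz_Q (P : PreRGD R G) (J : Set I) : Nz (P.PJ J) (P.UJ J) := nz_of_le (P.PJ_le_normalizer_UJ J)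

variable (P) in
/-- the torus acts irreducibly on each root subgroup -/
def IR : Prop := ∀ r, ∀ A : Subgroup G, Nz P.H A → ∀ y ∈ P.X r, y ≠ 1 → y ∈ A → P.X r ≤ A

theorem ir_of_lg (L : LD P) (hr : Lg R r) {A : Subgroup G} (h : Nz P.H A) (hy : y ∈ P.X r) (h1 : y ≠ 1)
    (hA : y ∈ A) : P.X r ≤ A := fun x hx => by
  by_cases e : x = 1
  · exact e ▸ one_mem _
  · obtain ⟨g, hg, rfl⟩ := conj_H L hr hy h1 hx e
    exact h.inv hg hA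

theorem comm_of_lg (L : LD P) (hr : Lg R r) (h : R.IsPos r) (h1 : R.ht r ≠ 1) :
    ∃ x ∈ P.X r, x ≠ 1 ∧ ∃ u ∈ P.U, ∃ v ∈ P.U, x = u * v * u⁻¹ * v⁻¹ := by
  obtain ⟨i, h2, h3⟩ := h.exists_pair_pos
  have h4 : R.simple i ≠ r := fun e => h1 (e ▸ R.ht_simple i)
  obtain ⟨k, hk⟩ := exists_sub_of_pair_pos h2 h4.symm
  have h5 := R.pair_pos_comm.1 h2
  have h6 := hr _ h4
  obtain ⟨x, hx, hx1⟩ := L.ne r
  obtain ⟨y, hy, hy1⟩ := L.ne k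
  obtain ⟨u, hu, e⟩ := L.heis (β := R.simple i) (γ := k) hr (by rw [hk]; abel) (by omega) y hy hy1 x hx
  refine ⟨x, hx, hx1, u, P.X_le_U (R.isPos_simple i) hu, y, P.X_le_U (isPos_iff_ht.2 ?_) hy, e⟩
  have := h.ht_pos
  rw [ht, hk, map_sub]
  change 0 < R.ht r - R.ht _
  rw [ht_simple]; omega

variable {Ω : Type*} [MulAction G Ω] [Finite Ω] {a : Ω} {q : ℕ}

theorem X_le_MR (hU : Trs Ω P.U) (hQ : Nz P.B Q) (hI : IR P) (hq : q ≤ Nat.card (P.X r))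
    (hn : Nat.card Ω ≤ ob Q a * q) (hr : R.IsPos r) (ih : ∀ s, R.IsPos s → R.ht r < R.ht s → P.X s ≤ MR Ω Q)
    (hd : q < Nat.card (P.X r) ∨ ∃ x ∈ P.X r, x ≠ 1 ∧ ∃ u ∈ P.U, ∃ v ∈ P.U, x = u * v * u⁻¹ * v⁻¹) :
    P.X r ≤ MR Ω Q := by
  by_contra h1
  have h2 : ∀ x ∈ P.X r, x ∈ MR Ω Q → x = 1 := fun x hx e => by_contra fun e' =>
    h1 (hI r _ (hQ.mr.mono P.H_le_B) x hx e' e)
  have hQU := hQ.mono P.U_le_B
  have h3 : ∀ x ∈ P.X r, ∀ u ∈ P.U, x⁻¹ * u⁻¹ * x * u ∈ MR Ω Q := fun x hx u hu => by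
    simpa [mul_assoc] using inv_mem (USub_le_iff.2 (fun s hs => ih s hs.1 hs.2) (U_comm_X hr hx hu))
  have h4 : SemiM Ω Q (P.X r) := fun x hx b t ht e =>
    h2 x hx (mem_MR_of hU hQU (hQU x (P.X_le_U hr hx)) (h3 x hx) ht e)
  rcases hd with hd | ⟨x, hx, hx1, u, hu, v, hv, rfl⟩
  · obtain ⟨A, -, h5, h6⟩ := ob_mul_eq (hQU.mono (P.X_le_U hr)) a
    rw [show A = ⊥ from eq_bot_iff.2 fun x hx => let ⟨h3, r, hr, e⟩ := (h5 x).1 hx; h4 x h3 a r hr e,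
      Subgroup.card_bot, mul_one] at h6
    exact (Nat.mul_lt_mul_of_pos_left hd (ob_pos Q a)).not_ge (h6 ▸ (ob_le _ a).trans hn)
  · exact hx1 (h2 _ hx (comm_mem_MR (P.X_le_U hr) hQU (X_comm r) h3 h4
      (hn.trans (Nat.mul_le_mul_left _ hq)) hu hv))

theorem X_le_of_n (hM : Nz (P.PJ J) M) (hi : i ∈ J) (h : P.X (R.sref i r) ≤ M) : P.X r ≤ M := fun x hx => by
  simpa [mul_assoc] using hM.inv (P.NJ_le_PJ J (P.n_mem_NJ hi)) (h (P.n_conj_X i r x hx))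

theorem trs_of_dom (hU : Trs Ω P.U) (hQ : Nz (P.PJ J) Q) (hI : IR P) (hq : ∀ r, q ≤ Nat.card (P.X r))
    (hJ : P.UJ J ≤ MR Ω Q) (hn : Nat.card Ω ≤ ob Q a * q)
    (hd : ∀ r, R.IsPos r → R.InSub J r → (∀ i ∈ J, 0 ≤ R.pair (R.simple i) r) → q < Nat.card (P.X r) ∨
      ∃ x ∈ P.X r, x ≠ 1 ∧ ∃ u ∈ P.U, ∃ v ∈ P.U, x = u * v * u⁻¹ * v⁻¹) : Trs Ω Q := by
  refine hU.of_MR (USub_le_iff.2 (ht_ind R fun r ih hr => ?_))
  by_cases h1 : R.InSub J r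
  swap
  · exact (le_USub (S := {r | R.IsPos r ∧ ¬ R.InSub J r}) ⟨hr, h1⟩).trans hJ
  by_cases h2 : ∀ i ∈ J, 0 ≤ R.pair (R.simple i) r
  · exact X_le_MR hU (hQ.mono (P.B_le_PJ J)) hI (hq r) hn hr (fun s h h' => ih s h' h) (hd r hr h1 h2)
  · push Not at h2
    obtain ⟨i, hi, h2⟩ := h2
    have := R.ht_sref i r
    have := IsPos.ht_pos hr
    exact X_le_of_n hQ.mr hi (ih _ (by omega) (isPos_iff_ht.2 (by omega)))

namespace Hi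
variable (h : Hi R θ j)
include h

theorem hook (hr : 0 < R.rc r j) (hs : 0 < R.rc s j) (hk : k ∈ R.intv r s) : k = θ ∧ R.rc θ = R.rc r + R.rc s := by
  have h1 := h.lg.intv_hook (h.pair_eq r ▸ hr) (h.pair_eq s ▸ hs) hk
  refine ⟨h.eq_of_ht ?_, h1⟩
  rw [ht, h1, map_add]
  exact ht_lt_of_intv (isPos_of_coord hr) (isPos_of_coord hs) hk

theorem Z_le_Q : P.X θ ≤ P.UJ {j}ᶜ := UJ_eq P j ▸ le_USub (by simp [h.rc_θ])

theorem comm_Q (hx : x ∈ P.UJ {j}ᶜ) (hy : y ∈ P.UJ {j}ᶜ) : x * y * x⁻¹ * y⁻¹ ∈ P.X θ := by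
  have := h.nz_Z.mono (P.UJ_le_PJ _)
  rw [UJ_eq] at hx hy this
  exact comm_mem this this (fun r hr s hs => ⟨ne_neg_of_pos (isPos_of_coord hs) (isPos_of_coord hr),
    fun k hk => (h.hook hr hs hk).1 ▸ le_rfl⟩) hx hy

theorem surj_of (hβ : 0 < R.rc β j) (h1 : R.rc θ = R.rc β + R.rc γ) {a b : G}
    (hb : b ∈ P.US {s | 0 < R.rc s j ∧ s ≠ γ}) (hx : x ∈ P.X β) :
    x * (a * b) * x⁻¹ * (a * b)⁻¹ = x * a * x⁻¹ * a⁻¹ := by
  have := comm_mem (A := {β}) (nz_bot _) (nz_bot _) (by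
    rintro _ rfl s hs
    exact ⟨ne_neg_of_pos (isPos_of_coord hs.1) (isPos_of_coord hβ), fun k hk =>
      absurd (R.rc_inj (add_left_cancel ((h.hook hβ hs.1 hk).2.symm.trans h1))) hs.2⟩)
    (mem_USub (Set.mem_singleton β) hx) hb
  calc _ = x * a * x⁻¹ * (x * b * x⁻¹ * b⁻¹) * a⁻¹ := by group
    _ = _ := by rw [Subgroup.mem_bot.1 this, mul_one]

theorem exists_dual (hγ : 0 < R.rc γ j) (h1 : γ ≠ θ) : ∃ β, R.rc β j = 1 ∧ R.rc θ = R.rc β + R.rc γ := by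
  obtain ⟨β, hβ⟩ := exists_sub_of_pair_pos (R.pair_pos_comm.1 (h.pair_eq γ ▸ hγ)) h1.symm
  have := h.rc_le h1
  exact ⟨β, by rw [hβ, Pi.sub_apply, h.rc_θ]; omega, by rw [hβ]; abel⟩

theorem surj_Q (L : LD P) (hy : y ∈ P.UJ {j}ᶜ) (hy' : y ∉ P.X θ) (hz : z ∈ P.X θ) :
    ∃ x ∈ P.UJ {j}ᶜ, z = x * y * x⁻¹ * y⁻¹ := by
  rw [UJ_eq] at hy ⊢
  obtain ⟨γ, h1, h2, a, ha, ha1, b, hb, rfl⟩ := lead h.ideal_Z (by simpa using hy') _ (ideal_Q j)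
    (fun r => isPos_of_coord) (by simp [h.rc_θ]) hy
  obtain ⟨β, h3, h4⟩ := h.exists_dual h1 h2
  obtain ⟨x, hx, rfl⟩ := L.heis h.lg h4 (h.pair_eq β ▸ h3) a ha ha1 z hz
  exact ⟨x, mem_USub (by simp [h3]) hx,
    (h.surj_of (by omega) h4 (US_mono hb fun s hs => ⟨hs.1, hs.2.1⟩) hx).symm⟩

variable [Nontrivial Ω] [FaithfulSMul G Ω] {p : ℕ} [hp : Fact p.Prime]
  (hP : P.Nondeg) (L : LD P) (hc : ∀ r, ∃ k, Nat.card (P.X r) = p ^ k) (hB : Trs Ω P.B)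
include hP L hc hB

theorem dvd_ob {m : ℕ} (hq : Nat.card (P.X θ) = q) (hQ : Nat.card (P.UJ {j}ᶜ) = q ^ (2 * m + 1)) (a : Ω) :
    q ^ (m + 1) ∣ ob (P.UJ {j}ᶜ) a := by
  have h1 := heis_bound (A := P.UJ {j}ᶜ ⊓ stabilizer G a) inf_le_left h.Z_le_Q le_rfl (hP.X_ne_bot θ)
    (fun z hz x hx => h.comm_Z hz (P.UJ_le_U _ hx)) (fun x hx y hy => h.comm_Q hx hy)
    (fun y hy hy' z hz => h.surj_Q L hy hy' hz) fun x hx hx' => h.semi_Z hP L hc hB x hx' a hx.2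
  have h0 : 0 < q := hq ▸ Nat.card_pos
  have h2 : st (P.UJ {j}ᶜ) a ≤ q ^ m := by
    rw [hq, hQ, pow_succ, two_mul, pow_add] at h1
    exact Nat.mul_self_le_mul_self_iff.1 (Nat.le_of_mul_le_mul_right h1 h0)
  obtain ⟨f, hf⟩ := hc θ
  obtain ⟨i, hi⟩ := ob_pow (pg_US hP hc (S := {r | R.IsPos r ∧ ¬ R.InSub {j}ᶜ r}) fun _ h => h.1) a
  refine pow_dvd_of_le hp.out (i := f * (m + 1)) (by rw [← hq, hf, pow_mul]) hi
    (Nat.le_of_mul_le_mul_right ?_ (pow_pos h0 m))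
  calc _ = _ := by rw [← pow_add, show m + 1 + m = 2 * m + 1 by ring, ← hQ, ← ob_mul_st _ a]
    _ ≤ _ := Nat.mul_le_mul_left _ h2

omit L hc hB in
theorem raise (hN : Nz P.U N) (hE : ∀ y ∈ N, y ∈ P.US {θ, R.sref j θ} → y ∈ P.X θ)
    (hr : ∀ β, R.rc β j = 1 → β = R.sref j θ ∨ ∃ δ, R.IsPos δ ∧ ∃ α, R.rc α j = 1 ∧ R.rc α = R.rc δ + R.rc β ∧
      ∀ a ∈ P.X β, a ≠ 1 → ∃ x ∈ P.X δ, ∃ z ∈ P.X α, z ≠ 1 ∧ z⁻¹ * (x * a * x⁻¹ * a⁻¹) ∈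
        P.US {s | 0 < R.rc s j ∧ s ≠ α ∧ R.ht β < R.ht s})
    (hy : y ∈ N) (hy' : y ∈ P.UJ {j}ᶜ) : y ∈ P.X θ := by
  have key : ∀ β, 0 < R.rc β j → β ≠ θ → ∀ a ∈ P.X β, a ≠ 1 →
      ∀ b ∈ P.US {s | 0 < R.rc s j ∧ s ≠ β ∧ R.ht β ≤ R.ht s}, a * b ∉ N := by
    refine ht_ind R fun β ih h1 h2 a ha ha1 b hb hab => ?_
    have h3 := h.rc_le h2
    rcases hr β (by omega) with rfl | ⟨δ, c1, α, c2, c3, c4⟩
    · have c1 : b ∈ P.X θ := by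
        rw [← USub_singleton (X := P.X) θ]
        exact US_mono hb fun s hs => (h.top s (by have := h.ht_γ; have := hs.2.2; omega)).resolve_right hs.2.1
      have := hE _ hab (mul_mem (mem_USub (by simp) ha) (mem_USub (by simp) c1))
      exact h2 (hP.eq_of_mem_X_X ha ((Subgroup.mul_mem_cancel_right _ c1).1 this) ha1)
    obtain ⟨x, hx, z, hz, hz1, c5⟩ := c4 a ha ha1
    have c6 : R.ht α = R.ht δ + R.ht β := by rw [ht, c3, map_add]; rfl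
    have c7 := c1.ht_pos
    have c8 : α ≠ θ := fun e => by rw [e, h.rc_θ] at c2; omega
    have c9 : R.ht β < R.ht θ := (h.ht_le β).lt_of_ne fun e => h2 (h.eq_of_ht e.ge)
    let T := {s | 0 < R.rc s j ∧ s ≠ α ∧ R.ht β < R.ht s}
    have hθ : θ ∈ T := ⟨by simp [h.rc_θ], c8.symm, c9⟩
    have hT : ∀ r ∈ T, R.IsPos r := fun r hr => isPos_of_coord hr.1
    have d1 : Nz (P.US {r | 0 < R.rc r j}) (P.US T) := nz_US (fun r => isPos_of_coord) hT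
      fun r hr s hs k hk => (h.hook hr hs.1 hk).1 ▸ hθ
    have d2 : ∀ s, 0 < R.rc s j → s ≠ β → R.ht β ≤ R.ht s → R.intv δ s ⊆ T := fun s d2 d3 d4 k hk => by
      have d5 := ht_lt_of_intv c1 (isPos_of_coord d2) hk
      refine ⟨ideal_Q j δ c1 s d2 hk, ?_, by omega⟩
      rintro rfl
      obtain ⟨m, n, hm, hn, e⟩ := hk
      have d6 := R.ht_comb e
      have d7 := (isPos_of_coord d2).ht_pos
      have d8 : 0 ≤ ((m : ℤ) - 1) * R.ht δ := mul_nonneg (by omega) c7.le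
      have d9 : 0 ≤ ((n : ℤ) - 1) * R.ht s := mul_nonneg (by omega) d7.le
      obtain rfl : m = 1 := by
        have : ((m : ℤ) - 1) * R.ht δ = 0 := by linarith
        rcases mul_eq_zero.1 this with e | e <;> omega
      obtain rfl : n = 1 := by
        have : ((n : ℤ) - 1) * R.ht s = 0 := by linarith
        rcases mul_eq_zero.1 this with e | e <;> omega
      exact d3 (R.rc_inj (by simpa [c3] using e.symm))
    have d3 : Nz (P.US {δ}) (P.US T) := nz_US (by simpa using c1) hT (by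
      rintro _ rfl s hs
      exact d2 s hs.1 (fun e => (e ▸ hs.2.2).false) hs.2.2.le)
    have d4 := comm_mem (S := {s | 0 < R.rc s j ∧ s ≠ β ∧ R.ht β ≤ R.ht s}) d3
      (d1.mono fun y hy => US_mono hy fun s hs => hs.1) (by
      rintro _ rfl s hs
      exact ⟨ne_neg_of_pos (isPos_of_coord hs.1) c1, fun k hk => le_USub (d2 s hs.1 hs.2.1 hs.2.2 hk)⟩)
      (mem_USub (Set.mem_singleton δ) hx) hb
    have d5 := mul_mem c5 (d1 a (mem_USub (S := {r | 0 < R.rc r j}) h1 ha) _ d4)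
    have d6 : x * (a * b) * x⁻¹ * (a * b)⁻¹ ∈ N := mul_mem (hN x (P.X_le_U c1 hx) _ hab) (inv_mem hab)
    rw [show z⁻¹ * (x * a * x⁻¹ * a⁻¹) * (a * (x * b * x⁻¹ * b⁻¹) * a⁻¹) =
      z⁻¹ * (x * (a * b) * x⁻¹ * (a * b)⁻¹) by group] at d5
    generalize x * (a * b) * x⁻¹ * (a * b)⁻¹ = w at d5 d6
    obtain ⟨β', e1, e2, a', e3, e4, b', e5, rfl⟩ := lead (y := w) h.ideal_Z (fun e => hz1 (hP.eq_one_of_mem_X_US
        (isPos_of_coord (i := j) (by omega)) hT (fun r hr s hs k hk => (h.hook hr.1 hs.1 hk).1 ▸ hθ) (fun e => e.2.1 rfl)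
        hz (by simpa using inv_mem (mul_mem d5 (inv_mem (US_mono (T := T) e (by simpa using hθ)))))))
      _ (ideal_Q_ht j (R.ht β)) (fun r hr => isPos_of_coord hr.1) (by simp [h.rc_θ, c9]) (by
        simpa using mul_mem (mem_USub (S := {r | 0 < R.rc r j ∧ R.ht β < R.ht r}) ⟨by omega, by omega⟩ hz)
          (US_mono d5 fun s hs => ⟨hs.1, hs.2.2⟩))
    exact ih β' e1.2 e1.1 e2 a' e3 e4 b' (US_mono e5 fun s hs => ⟨hs.1.1, hs.2.1,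
      hs.2.2.elim (fun e => e ▸ h.ht_le β') id⟩) d6
  by_contra h1
  rw [UJ_eq] at hy'
  obtain ⟨β, e1, e2, a, e3, e4, b, e5, rfl⟩ := lead h.ideal_Z (by simpa using h1) _ (ideal_Q j)
    (fun r => isPos_of_coord) (by simp [h.rc_θ]) hy'
  exact key β e1 e2 a e3 e4 b (US_mono e5 fun s hs => ⟨hs.1, hs.2.1, hs.2.2.elim (fun e => e ▸ h.ht_le β) id⟩) hy

/-- the unipotent radical is regular if it is transitive -/
theorem final (hT : Trs Ω (P.UJ {j}ᶜ))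
    (hr : ∀ β, R.rc β j = 1 → β = R.sref j θ ∨ ∃ δ, R.IsPos δ ∧ ∃ α, R.rc α j = 1 ∧ R.rc α = R.rc δ + R.rc β ∧
      ∀ a ∈ P.X β, a ≠ 1 → ∃ x ∈ P.X δ, ∃ z ∈ P.X α, z ≠ 1 ∧ z⁻¹ * (x * a * x⁻¹ * a⁻¹) ∈
        P.US {s | 0 < R.rc s j ∧ s ≠ α ∧ R.ht β < R.ht s}) : Nat.card Ω = Nat.card (P.UJ {j}ᶜ) := by
  obtain ⟨a⟩ := (inferInstance : Nonempty Ω)
  have hZ := h.nz_Z (P := P)
  have h1 := nz_final (R := ⊥) (a := a) (A := P.UJ {j}ᶜ ⊓ stabilizer G a) (fun x => by simp) (by simpa using hT)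
    h.Z_le_Q (fun x hx y hy => h.comm_Q hx hy) (P.UJ_le_PJ _) (nz_bot _) (nz_Q P _) hZ
  rw [← hT.ob_eq a, ← ob_mul_st _ a, st_eq_one_iff.2 fun x hx e => h.semi_Z hP L hc hB x (h.raise hP
    (h1.mono (P.U_le_PJ _)) (fun y hy hE => ?_) hr (Subgroup.mem_sup_left ⟨hx, e⟩) hx) a e, mul_one]
  obtain ⟨u, hu, z, hz, rfl⟩ := (mem_sup_iff_of_le_normalizer
    (inf_le_left.trans ((P.UJ_le_PJ _).trans hZ.le))).1 hy
  rwa [h.semi_E hP L hc hB u ((Subgroup.mul_mem_cancel_right _ (mem_USub (by simp) hz)).1 hE) a hu.2, one_mul]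

end Hi

theorem raise_of_lg (L : LD P) (hα : Lg R α) (h1 : R.rc α = R.rc δ + R.rc β) (h2 : R.pair α δ = 1) (S : Set ι) :
    ∀ a ∈ P.X β, a ≠ 1 → ∃ x ∈ P.X δ, ∃ z ∈ P.X α, z ≠ 1 ∧ z⁻¹ * (x * a * x⁻¹ * a⁻¹) ∈ P.US S := fun a ha ha1 => by
  obtain ⟨z, hz, hz1⟩ := L.ne α
  obtain ⟨x, hx, e⟩ := L.heis hα h1 h2 a ha ha1 z hz
  exact ⟨x, hx, z, hz, hz1, by simp [← e]⟩

end Cfsg.Agent.T2X
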