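import Cfsg.Agent.Lib.T2X.C

/-! The generic case. -/

set_option autoImplicit false
set_option linter.unusedSectionVars false

namespace Cfsg.Agent.T2X

open MulAction Finset T2 Chev RD RSys PreRGD

variable {ι I : Type*} [Fintype I] [DecidableEq I] [Fintype ι] [DecidableEq ι] {R : RSys ι I}
  {G : Type*} [Group G] [Finite G] {P : PreRGD R G} {θ : ι} {j : I}
  {Ω : Type*} [MulAction G Ω] [Finite Ω] [Nontrivial Ω] [FaithfulSMul G Ω] {p q : ℕ} [hp : Fact p.Prime]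

theorem trs_U (hP : P.Nondeg) (hH : ¬ p ∣ Nat.card P.H) (hB : Trs Ω P.B) {k : ℕ} (hn : Nat.card Ω = p ^ k) :
    Trs Ω P.U := trs_of_pow hp.out hB P.U_le_B hP.card_B hH hn

theorem card_US_pow (hP : P.Nondeg) {e : ι → ℕ} (he : ∀ r, Nat.card (P.X r) = q ^ e r) {S : Set ι}
    (hS : ∀ r ∈ S, R.IsPos r) (hc : R.Closed S) (T : Finset ι) (hT : ∀ r, r ∈ T ↔ r ∈ S) :
    Nat.card (P.US S) = q ^ ∑ r ∈ T, e r := by
  classical
  rw [hP.card_US (halfSpace_of_pos hS) hc, ← prod_pow_eq_pow_sum]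
  exact prod_congr (Finset.ext fun r => by simp [hT]) fun r _ => he r

theorem card_Q_pow (hP : P.Nondeg) {e : ι → ℕ} (he : ∀ r, Nat.card (P.X r) = q ^ e r) (j : I) :
    Nat.card (P.UJ {j}ᶜ) = q ^ ∑ r with 0 < R.rc r j, e r :=
  UJ_eq P j ▸ card_US_pow hP he (fun _ => isPos_of_coord) ((ideal_Q j).closed fun _ => isPos_of_coord) _
    fun _ => mem_filter_univ _

/-- the degree, from the class of the long root elements -/
theorem Hi.deg (h : Hi R θ j) (hP : P.Nondeg) (L : LD P) (hc : ∀ r, ∃ k, Nat.card (P.X r) = p ^ k) (hB : Trs Ω P.B)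
    (h2 : Two G Ω) (hq : Nat.card (P.X θ) = q) {M N S : ℕ} (hM : M ∣ Nat.card Ω) (hN : M ∣ N) (h0 : 0 < N)
    (hS : S < M) (hi : (P.PJ {j}ᶜ).index * (q - 1) = (N - 1) * S) :
    Nat.card Ω = N ∨ (Nat.card Ω - 1) * (M + S) ≤ (N - 1) * S := by
  obtain ⟨l, hl⟩ := h.exists_lam hP L hc hB h2
  refine num_cases hM hN Nat.card_pos h0 hS (Nat.pos_of_ne_zero fun e => ?_) (hl.trans (hq ▸ hi))
  have := Finite.one_lt_card_iff_nontrivial.2 ((Subgroup.nontrivial_iff_ne_bot _).2 (hP.X_ne_bot θ))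
  rw [e, mul_zero, Nat.mul_eq_zero] at hi
  exact hi.elim Subgroup.index_ne_zero_of_finite (by omega)

theorem Hi.not_trs (h : Hi R θ j) (hP : P.Nondeg) (L : LD P) (hI : IR P) (hc : ∀ r, ∃ k, Nat.card (P.X r) = p ^ k)
    (hH : ¬ p ∣ Nat.card P.H) (h2 : Two G Ω) (hq : Nat.card (P.X θ) = q) (hq' : ∀ r, q ≤ Nat.card (P.X r))
    {m S : ℕ} (hm : m ≠ 1) (hQ : Nat.card (P.UJ {j}ᶜ) = q ^ (2 * m + 1)) (hS : S < q ^ (m + 1))
    (hi : (P.PJ {j}ᶜ).index * (q - 1) = (q ^ (m + 2) - 1) * S)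
    (hS' : (q ^ (m + 2) - 1) * S < (q ^ (m + 1) - 1) * (q ^ (m + 1) + S))
    (hd : ∀ r, R.IsPos r → R.rc r j = 0 → (∀ i, i ≠ j → 0 ≤ R.pair (R.simple i) r) → q < Nat.card (P.X r) ∨
      ∃ x ∈ P.X r, x ≠ 1 ∧ ∃ u ∈ P.U, ∃ v ∈ P.U, x = u * v * u⁻¹ * v⁻¹)
    (hr : ∀ β, R.rc β j = 1 → β = R.sref j θ ∨ ∃ δ, R.IsPos δ ∧ ∃ α, R.rc α j = 1 ∧ R.rc α = R.rc δ + R.rc β ∧
      ∀ a ∈ P.X β, a ≠ 1 → ∃ x ∈ P.X δ, ∃ z ∈ P.X α, z ≠ 1 ∧ z⁻¹ * (x * a * x⁻¹ * a⁻¹) ∈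
        P.US {s | 0 < R.rc s j ∧ s ≠ α ∧ R.ht β < R.ht s}) : ¬ Trs Ω P.B := fun hB => by
  obtain ⟨a⟩ := (inferInstance : Nonempty Ω)
  have h1 : 1 < q := hq ▸ Finite.one_lt_card_iff_nontrivial.2 ((Subgroup.nontrivial_iff_ne_bot _).2 (hP.X_ne_bot θ))
  have h3 := h.dvd_ob hP L hc hB hq hQ a
  have h4 := h3.trans (ob_dvd_card (nz_Q P _) (hB.mono (P.B_le_PJ _)) a)
  have h5 := (h.deg hP L hc hB h2 hq h4 (pow_dvd_pow q (Nat.le_succ _)) (by positivity) hS hi).resolve_right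
    (hS'.trans_le (Nat.mul_le_mul_right _ (Nat.sub_le_sub_right (Nat.le_of_dvd Nat.card_pos h4) 1))).not_ge
  obtain ⟨f, hf⟩ := hc θ
  have h6 := h.final hP L hc hB (trs_of_dom (a := a) (trs_U hP hH hB (k := f * (m + 2)) (by rw [h5, ← hq, hf, pow_mul]))
    (nz_Q P _) hI hq' (le_MR _) (by rw [h5, pow_succ]; exact Nat.mul_le_mul_right _ (Nat.le_of_dvd (ob_pos _ a) h3))
    fun r c1 c2 => hd r c1 (inSub_iff.1 c2)) hr
  have := Nat.pow_right_injective h1 (h5.symm.trans (h6.trans hQ))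
  omega

theorem sq_span {K : Type*} [Field K] [Finite K] {A : AddSubgroup K} (h : ∀ t, t ≠ 0 → ∀ u ∈ A, t ^ 2 * u ∈ A) {u : K}
    (hu : u ∈ A) (h0 : u ≠ 0) (v : K) : v ∈ A := by
  have h1 : ∀ t, t ^ 2 * u ∈ A := fun t => by
    by_cases e : t = 0
    · simp [e]
    · exact h t e u hu
  by_cases h2 : ringChar K = 2
  · obtain ⟨t, ht⟩ := FiniteField.isSquare_of_char_two h2 (v / u)
    convert h1 t using 1
    rw [sq, ← ht, div_mul_cancel₀ _ h0]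
  · have := Ring.two_ne_zero h2
    convert sub_mem (h1 ((v / u + 1) / 2)) (h1 ((v / u - 1) / 2)) using 1
    field_simp
    ring

theorem ir_of_sq {K : Type*} [Field K] [Finite K] {X H A : Subgroup G} {Y : K → G} (h1 : ∀ g, g ∈ X ↔ ∃ t, g = Y t)
    (h2 : ∀ t u, Y (t + u) = Y t * Y u) (h3 : ∀ t, t ≠ 0 → ∃ g ∈ H, ∀ u, g * Y u * g⁻¹ = Y (t ^ 2 * u))
    (hA : Nz H A) {y : G} (hy : y ∈ X) (hy1 : y ≠ 1) (hyA : y ∈ A) : X ≤ A := fun x hx => by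
  obtain ⟨u, rfl⟩ := (h1 _).1 hy
  obtain ⟨v, rfl⟩ := (h1 _).1 hx
  let f := AddMonoidHom.mk' (fun t => Additive.ofMul (Y t)) h2
  exact sq_span (A := A.toAddSubgroup.comap f) (fun t ht u hu => let ⟨g, hg, e⟩ := h3 t ht; by
    change Y _ ∈ A
    exact e u ▸ hA g hg _ hu) hyA (fun e => hy1 (e ▸ f.map_zero)) v

section Chev
open ChevM _root_.Cfsg.Lie
variable {D : ChevalleyDatum} [Tab D] {F : Type*} [Field F] [Finite F]

theorem ir_PG : IR (PG D F) := fun r _ hA _ => ir_of_sq (Y := xG D F r) (fun _ => mem_X_iff)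
  (fun t u => (xG_add r t u).symm) (fun t ht => ⟨_, hElt_mem_H r ht, fun u => by
    simpa [zpow_two, sq] using (r7_xG D F).h_conj_x (stRel_xG D F) r r ht u⟩) hA

theorem index_D {Γ : Type*} [Group Γ] [Finite Γ] {P : PreRGD (rs D) Γ} (hP : P.Nondeg) (hf : P.full = ⊤)
    {θ : Fin D.nroots} {j : Fin D.rank} (hθ : ∀ m, (rs D).pair θ ((rs D).simple m) = if m = j then 1 else 0)
    {c e : ℕ → ℕ} (hc : ∀ i, Nat.card (P.X ((rs D).simple i)) = q ^ c i) (h0 : e θ = 0)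
    (h : ∀ r < D.nroots, len D r = len D θ → r = θ ∨ ∃ i < D.rank, D.cartan i r < 0 ∧
      e r = c i + e (D.reflectRoot i r)) :
    (P.PJ {j}ᶜ).index = (((List.range D.nroots).filter fun r => len D r = len D θ).map fun r => q ^ e r).sum := by
  rw [index_PJ hP hf hθ (S := univ.filter fun r => len D r = len D θ) (wt := fun r => q ^ e r) (by simp)
    (by simp [h0]) (fun r hr i => (mem_filter_univ _).2
      ((Aut.len_apply ((rs D).sref_mem_Aut i) r).trans (mem_filter.1 hr).2)) fun r hr => ?_]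
  · rw [sum_filter, Fin.sum_univ_eq_sum_range (fun r => if len D r = len D θ then q ^ e r else 0), ← sum_filter,
      ← List.sum_toFinset _ (List.nodup_range.filter _)]
    congr 1
    ext; simp
  · refine (h r r.2 (by simpa using hr)).imp Fin.ext fun ⟨i, hi, h1, h2⟩ => ⟨⟨i, hi⟩, by rwa [rs_pair_simple], ?_⟩
    rw [hc, h2, pow_add, ← reflectRoot_eq]

theorem ht_eq (r : Fin D.nroots) : (rs D).ht r = sumLt D.rank (rcN D r) := (sumLt_eq_fin D.rank (rcN D r)).symm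

theorem hi_D {θ : Fin D.nroots} {j : Fin D.rank} (h1 : ∀ s < D.nroots, s ≠ θ → D.pairing θ s ≤ 1)
    (h2 : ∀ m < D.rank, D.pairing θ (D.simple m) = if m = j then 1 else 0) (h3 : D.cartan j θ = 1)
    (h4 : ∀ k < D.nroots, sumLt D.rank (rcN D θ) ≤ sumLt D.rank (rcN D k) + 1 → k = θ ∨ k = D.reflectRoot j θ) :
    Hi (rs D) θ j where
  lg := lg_iff.2 h1
  pr m := by rw [rs_pair, rs_simple_val, h2 m m.2]; simp [Fin.ext_iff]
  p1 := by rwa [rs_pair_simple]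
  top k hk := (h4 k k.2 (by rwa [ht_eq, ht_eq] at hk)).imp Fin.ext fun e => Fin.ext (e.trans (reflectRoot_eq _ _))

end Chev

end Cfsg.Agent.T2X
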