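import Cfsg.Agent.Lib.T2X.G2a
import Cfsg.Agent.Lib.RD.W

/-! The Borel subgroup of `G₂(q)`, `q ≥ 3`, is not transitive in a faithful doubly transitive action. -/

set_option autoImplicit false
set_option linter.unusedSectionVars false

namespace Cfsg.Agent.T2X

namespace G2

open MulAction Finset T2 Chev ChevM RD RSys PreRGD RD.G2 _root_.Cfsg.Lie

/-- roots -/
def rt (n : ℕ) (h : n < 12 := by decide) : Fin chevG2.nroots := ⟨n, h⟩

theorem ht_tab (r : Fin chevG2.nroots) (n : ℕ) (hn : 1 ≤ n) :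
    ((rs chevG2).IsPos r ∧ (n : ℤ) < (rs chevG2).ht r) ↔ n + 7 ≤ r.1 := by
  have h : ∀ r : Fin chevG2.nroots, (6 ≤ r.1 → sumLt chevG2.rank (rcN chevG2 r) = if r.1 = 6 then 1 else (r.1 : ℤ) - 6) := by
    decide +kernel
  have h0 : chevG2.nroots = 12 := rfl
  rw [rs_isPos_iff_le, ht_eq]
  by_cases e : 6 ≤ r.1
  · rw [h r e]; split_ifs <;> omega
  · omega

theorem hi : Hi (rs chevG2) (rt 11) ⟨1, by decide⟩ :=
  hi_D (by decide +kernel) (by decide +kernel) (by decide +kernel) (by decide +kernel)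

variable {F : Type*} [Field F] [Finite F] {y z : chevG2.group F} {t u v : F}

variable (F) in
/-- the height filtration -/
noncomputable abbrev V (n : ℕ) : Subgroup (chevG2.group F) := VH (PG chevG2 F) n

theorem x_mem {k n : ℕ} (t : F) (h : 1 ≤ n ∧ n + 7 ≤ k ∧ k < 12 := by decide) : x k t ∈ V F n :=
  mem_USub (S := {r | (rs chevG2).IsPos r ∧ (n : ℤ) < (rs chevG2).ht r}) ((ht_tab ⟨k, h.2.2⟩ n h.1).2 h.2.1)
    (xG_mem_X ⟨k, h.2.2⟩ t)

theorem x0 (r : ℕ) : x r (0 : F) = 1 := xG_zero r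

theorem x_mem_U {k : ℕ} (t : F) (h : 6 ≤ k ∧ k < 12 := by decide) : x k t ∈ (PG chevG2 F).U :=
  (PG chevG2 F).X_le_U ((rs_isPos_iff_le ⟨k, h.2⟩).2 (show 12 ≤ 2 * k by omega)) (xG_mem_X ⟨k, h.2⟩ t)

theorem V_top (hy : y ∈ V F 5) : y = 1 := by
  rw [V, VH, show {r | (rs chevG2).IsPos r ∧ ((5 : ℕ) : ℤ) < (rs chevG2).ht r} = ∅ from
    Set.eq_empty_of_forall_notMem fun r hr => by
      have := (ht_tab r 5 (by decide)).1 hr
      have : r.1 < 12 := r.2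
      omega, US, USub_empty] at hy
  exact hy

theorem splitV {n : ℕ} (hy : y ∈ V F n) (h : 1 ≤ n ∧ n + 7 < 12 := by decide) :
    ∃ t, ∃ b ∈ V F (n + 1), y = x (n + 7) t * b := by
  obtain ⟨a, ha, b, hb, rfl⟩ := split_VH (β := ⟨n + 7, h.2⟩) ((ht_tab _ n h.1).2 le_rfl) (fun s h1 h2 h3 => by
    have h4 := (ht_tab s n h.1).1 ⟨h1, h2⟩
    have h5 : s.1 ≠ n + 7 := fun e => h3 (Fin.ext e)
    exact_mod_cast ((ht_tab s (n + 1) (by omega)).2 (by omega)).2) hy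
  obtain ⟨t, rfl⟩ := mem_X_iff.1 ha
  exact ⟨t, b, by exact_mod_cast hb, rfl⟩

theorem zero_of {k n : ℕ} (hx : x k t ∈ V F n) (h : 1 ≤ n ∧ 6 ≤ k ∧ k < n + 7 ∧ k < 12 := by decide) : t = 0 := by
  have h1 : (rs chevG2).IsPos ⟨k, h.2.2.2⟩ := (rs_isPos_iff_le _).2 (show 12 ≤ 2 * k by omega)
  exact (xG_eq_one_iff h.2.2.2).1 (eq_one_of_VH (nondeg chevG2 F) h1 (not_lt.1 fun e => by
    have : n + 7 ≤ k := (ht_tab _ n h.1).1 ⟨h1, e⟩
    omega) (xG_mem_X ⟨k, h.2.2.2⟩ t) hx)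

theorem V_mono {m n : ℕ} (hy : y ∈ V F n) (h : m ≤ n := by decide) : y ∈ V F m := VH_mono (by exact_mod_cast h) hy

theorem commV {m n : ℕ} (hy : y ∈ V F m) (hz : z ∈ V F n) (h : 4 ≤ m + n := by decide) : Commute y z := by
  have := V_top (VH_mono (by push_cast; omega) (comm_VH hy hz))
  exact commutatorElement_eq_one_iff_commute.1 this

theorem mem4 (hy : y ∈ V F 4) : ∃ v, y = x 11 v := by
  obtain ⟨v, b, hb, rfl⟩ := splitV hy
  exact ⟨v, by rw [V_top hb, mul_one]⟩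

theorem mem3 (hy : y ∈ V F 3) : ∃ u v, y = x 10 u * x 11 v := by
  obtain ⟨u, b, hb, rfl⟩ := splitV hy
  obtain ⟨v, rfl⟩ := mem4 hb
  exact ⟨u, v, rfl⟩

theorem card_V {n : ℕ} (h : 1 ≤ n ∧ n ≤ 5 := by decide) : Nat.card (V F n) = Nat.card F ^ (5 - n) := by
  rw [V, VH, card_US_pow (nondeg chevG2 F) (e := fun _ => 1) (fun r => by rw [card_X, pow_one]) (fun _ h => h.1)
    ((ideal_ht_gt _).closed fun _ h => h.1) (univ.filter fun r => n + 7 ≤ r.1)
    fun r => (mem_filter_univ _).trans (ht_tab r n h.1).symm]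
  congr 1
  revert h
  have : ∀ n < 6, 1 ≤ n → ∑ r ∈ univ.filter (fun r : Fin chevG2.nroots => n + 7 ≤ r.1), 1 = 5 - n := by decide +kernel
  exact fun h => this n (by omega) h.1

theorem cj (r s : ℕ) (t u : F) (h : r < 12 ∧ s < 12 ∧ r + s ≠ 11 := by decide) : (x s u)⁻¹ * x r t * x s u =
    x r t * wordVal x ((ct s r).map fun c => (c.1, c.2.1 * (-u) ^ c.2.2.1 * t ^ c.2.2.2)) := by
  rw [mul_assoc, swap h.1 h.2.1 h.2.2, mul_assoc, inv_mul_cancel_left]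

theorem cm (r s : ℕ) (t u : F) (h : r < 12 ∧ s < 12 ∧ r + s ≠ 11 ∧ ct s r = [] := by decide) :
    Commute (x r t) (x s u) := by
  have := swap h.1 h.2.1 h.2.2.1 t u
  rw [h.2.2.2] at this
  exact (commute_iff_eq _ _).2 (by simpa using this)

theorem nb (s k : ℕ) (t : F) (h : s < 12 ∧ rf 6 s = k := by decide) :
    nElt chevG2 x 6 (1 : F) * x s t * (nElt chevG2 x 6 (1 : F))⁻¹ = x k (sg F 6 s * t) := by
  have := (r7_xG chevG2 F).conj_one (rt 6) ⟨s, h.1⟩ t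
  rwa [refl_eq, show rf (rt 6) (⟨s, h.1⟩ : Fin chevG2.nroots) = k from h.2] at this

theorem conj11 (ht : t ≠ 0) : IsConj (x 11 t) (x 11 (1 : F)) := by
  have := (r7_xG chevG2 F).h_conj_x (stRel_xG chevG2 F) (rt 6) (rt 11) (inv_ne_zero ht) t
  rw [pair_eq, show pr (rt 6) (rt 11) = 1 from rfl, zpow_one, inv_mul_cancel₀ ht] at this
  exact isConj_iff.2 ⟨_, this⟩

theorem kill (hu : u ≠ 0) (t v : F) : IsConj (x 9 t * (x 10 u * x 11 v)) (x 9 (sg F 6 9 * t) * x 11 (sg F 6 10 * u)) := by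
  have h1 := cj 9 6 t (v / u)
  have h2 := cj 10 6 u (v / u)
  have h3 := cj 11 6 v (v / u)
  simp only [ct, List.map, wordVal_cons, wordVal_nil, mul_one, pow_one, Int.cast_one, one_mul] at h1 h2 h3
  refine isConj_iff.2 ⟨nElt chevG2 x 6 (1 : F) * (x 6 (v / u))⁻¹, ?_⟩
  rw [← nb 9 9, ← nb 10 11]
  calc _ = nElt chevG2 x 6 (1 : F) * (((x 6 (v / u))⁻¹ * x 9 t * x 6 (v / u)) * (((x 6 (v / u))⁻¹ * x 10 u * x 6 (v / u)) *
      ((x 6 (v / u))⁻¹ * x 11 v * x 6 (v / u)))) * (nElt chevG2 x 6 (1 : F))⁻¹ := by group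
    _ = _ := by
      rw [h1, h2, h3, mul_assoc (x 10 u), xG_add, show -(v / u) * u + v = 0 by field_simp; ring, xG_zero]
      group

theorem conj3 (hy : y ∈ V F 3) (h1 : y ≠ 1) : IsConj y (x 11 (1 : F)) := by
  obtain ⟨u, v, rfl⟩ := mem3 hy
  by_cases hu : u = 0
  · rw [hu, x0, one_mul] at h1 ⊢
    exact conj11 fun e => h1 (e ▸ xG_zero _)
  · have := kill hu 0 v
    rw [mul_zero, x0, one_mul, one_mul] at this
    exact this.trans (conj11 (sg_ne (by decide) (by decide) hu))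

theorem cent3 (h3 : (3 : F) = 0) (t v : F) : ∀ g ∈ (PG chevG2 F).U, Commute (x 9 t * x 11 v) g := fun g hg => by
  refine Commute.mul_left ?_ (hi.comm_Z (xG_mem_X (rt 11) v) hg)
  refine USub_induction (C := fun g => Commute (x 9 t) g) hg (fun r hr g hg => ?_) (Commute.one_right _)
    fun _ _ _ _ => Commute.mul_right
  obtain ⟨u, rfl⟩ := mem_X_iff.1 hg
  obtain ⟨r, h⟩ := r
  have h1 : 12 ≤ 2 * r := (rs_isPos_iff_le _).1 hr
  have h2 : r < 12 := h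
  have h4 := swap (r := 9) (by decide) h2 (by omega) t u
  have : r = 6 ∨ r = 7 ∨ r = 8 ∨ r = 9 ∨ r = 10 ∨ r = 11 := by omega
  rcases this with rfl | rfl | rfl | rfl | rfl | rfl <;>
    exact (commute_iff_eq _ _).2 (by simpa [ct, h3, xG_zero] using h4)

theorem ld (h3 : (3 : F) ≠ 0) : LD (PG chevG2 F) where
  ne r := ⟨_, mem_X_iff.2 ⟨1, rfl⟩, by simp [xG_eq_one_iff r.2]⟩
  heis {α β γ} h0 h1 h2 y hy e z hz := by
    have key : ∀ α β γ : Fin chevG2.nroots, (∀ s < chevG2.nroots, s ≠ α → chevG2.pairing α s ≤ 1) →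
        (∀ i, rc chevG2 α i = rc chevG2 β i + rc chevG2 γ i) → pr α β = 1 →
        ∃ c ∈ [(1 : ℤ), -1, 3, -3], ct γ β = [(α.1, c, 1, 1)] := by decide +kernel
    obtain ⟨c, hc, h4⟩ := key α β γ (lg_iff.1 h0) (congrFun h1) (pair_eq α β ▸ h2)
    have h5 : (c : F) ≠ 0 := by
      simp only [List.mem_cons, List.not_mem_nil, or_false] at hc
      rcases hc with rfl | rfl | rfl | rfl <;> simp [h3]
    obtain ⟨t, rfl⟩ := mem_X_iff.1 hy
    obtain ⟨u, rfl⟩ := mem_X_iff.1 hz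
    have ht : t ≠ 0 := fun e' => e (e' ▸ xG_zero _)
    refine ⟨_, mem_X_iff.2 ⟨-((c : F)⁻¹ * t⁻¹ * u), rfl⟩, ?_⟩
    rw [comm_xG γ.2 β.2 ((ct_eq _ γ.2 _ β.2).trans h4)]
    congr 1
    field_simp
  tor {α} h := by
    have key : ∀ α : Fin chevG2.nroots, ∃ r : Fin chevG2.nroots, pr r α = 1 := by decide +kernel
    obtain ⟨r, hr⟩ := key α
    exact tor_of_pair ((pair_eq r α).trans hr)

theorem index : ((PG chevG2 F).PJ {⟨1, by decide⟩}ᶜ).index * (Nat.card F - 1) = Nat.card F ^ 6 - 1 := by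
  rw [index_D (nondeg chevG2 F) PG_full hi.pr (q := Nat.card F) (c := fun _ => 1)
    (e := fun r => [5, 4, 0, 0, 0, 3, 2, 0, 0, 0, 1, 0].getD r 0) (fun i => by rw [card_X, pow_one]) rfl
    (by decide +kernel), show (List.range chevG2.nroots).filter (fun r => len chevG2 r = len chevG2 (rt 11)) =
      [0, 1, 5, 6, 10, 11] by decide +kernel]
  obtain ⟨q, hq⟩ := Nat.exists_eq_add_of_le' (Nat.card_pos (α := F))
  rw [hq, Nat.add_sub_cancel]
  refine (Nat.sub_eq_of_eq_add ?_).symm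
  simp
  ring

theorem card_UJ (i : Fin chevG2.rank) : Nat.card ((PG chevG2 F).UJ {i}) = Nat.card F ^ 5 := by
  have h : ∀ i : Fin chevG2.rank, ∃ j : Fin chevG2.rank, (∀ k, k = i ↔ k ≠ j) ∧
    ∑ r ∈ univ.filter (fun r : Fin chevG2.nroots => 0 < rc chevG2 r j), 1 = 5 := by decide +kernel
  obtain ⟨j, h1, h2⟩ := h i
  rw [show ({i} : Set (Fin chevG2.rank)) = {j}ᶜ from Set.ext h1, card_Q_pow (nondeg chevG2 F) (e := fun _ => 1)
    (fun r => by rw [card_X, pow_one]), ← h2]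
  rfl

theorem cancel {G : Type*} [Group G] {a w b : G} (h : Commute w b) : (a * b)⁻¹ * (a * w * b) = w := by
  rw [mul_assoc, h.eq]; group

theorem cmul {G : Type*} [Group G] (a b g : G) : g⁻¹ * (a * b) * g = g⁻¹ * a * g * (g⁻¹ * b * g) := by group

theorem fix7 (hy : y ∈ V F 3) (t : F) : (x 7 t)⁻¹ * y * x 7 t = y := by
  obtain ⟨u, v, rfl⟩ := mem3 hy
  rw [mul_assoc, ((cm 10 7 u t).mul_left (cm 11 7 v t)).eq, inv_mul_cancel_left]

theorem exists_ne (hq : 3 ≤ Nat.card F) : ∃ t : F, t ≠ 0 ∧ t ≠ 1 := by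
  classical
  have := Fintype.ofFinite F
  obtain ⟨t, -, ht⟩ := exists_mem_notMem_of_card_lt_card (s := ({0, 1} : Finset F)) (t := univ)
    (card_le_two.trans_lt (by rw [card_univ, ← Nat.card_eq_fintype_card]; omega))
  exact ⟨t, by simpa using ht⟩

theorem memQ (s : Fin chevG2.nroots) : 0 < (rs chevG2).rc s ⟨1, by decide⟩ ↔ s.1 = 6 ∨ 1 + 7 ≤ s.1 := by
  change 0 < rc chevG2 s ⟨1, by decide⟩ ↔ _
  revert s; decide +kernel

theorem split_Q {ι I : Type*} [Fintype I] [DecidableEq I] [Fintype ι] [DecidableEq ι] {R : RSys ι I} {G : Type*}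
    [Group G] [Finite G] {P : PreRGD R G} {j : I} {β : ι} {T : Set ι} (hβ : 0 < R.rc β j)
    (hT : ∀ s, 0 < R.rc s j → s ≠ β → s ∈ T) {y : G} (hy : y ∈ P.UJ {j}ᶜ) : ∃ a ∈ P.X β, ∃ b ∈ P.US T, y = a * b := by
  rw [UJ_eq] at hy
  obtain ⟨a, ha, b, hb, e⟩ := split (fun _ => isPos_of_coord) ((ideal_Q j).closed fun _ => isPos_of_coord) hβ hy
  exact ⟨a, ha, b, US_mono hb fun s hs => hT s hs.1 hs.2, e⟩

theorem splitQ (hQ : y ∈ (PG chevG2 F).UJ {⟨1, by decide⟩}ᶜ) : ∃ u, ∃ b ∈ V F 1, y = x 6 u * b := by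
  obtain ⟨a, ha, b, hb, e⟩ := split_Q (β := rt 6) (T := {r | (rs chevG2).IsPos r ∧ ((1 : ℕ) : ℤ) < (rs chevG2).ht r})
    ((memQ _).2 (Or.inl rfl)) (fun s h1 h2 => (ht_tab s 1 le_rfl).2 (((memQ s).1 h1).resolve_left
      fun e => h2 (Fin.ext e))) hQ
  obtain ⟨u, rfl⟩ := mem_X_iff.1 ha
  exact ⟨u, b, hb, e⟩

section descend
variable (h3 : (3 : F) ≠ 0) {N : Subgroup (chevG2.group F)} (hN : Nz (PG chevG2 F).U N)
  (hE : ∀ y ∈ N, y ∈ V F 3 → y ∈ V F 4) (hy : y ∈ N)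
include hN hy

theorem comm7 (t : F) : y⁻¹ * ((x 7 t)⁻¹ * y * x 7 t) ∈ N := mul_mem (inv_mem hy) (hN.inv (x_mem_U t) hy)

include h3 hE

theorem stepA (h : y ∈ V F 2) : y ∈ V F 4 := by
  obtain ⟨u, b, hb, rfl⟩ := splitV h
  have h1 := comm7 hN hy 1
  rw [cmul, fix7 hb, cj (2 + 7) 7] at h1
  simp only [ct, List.map, wordVal_cons, wordVal_nil, mul_one, pow_one] at h1
  rw [cancel (commV (x_mem (k := 10) (n := 3) _) hb)] at h1
  have h2 := zero_of (hE _ h1 (x_mem _))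
  obtain rfl : u = 0 := by simpa [h3] using h2
  rw [x0, one_mul] at hy ⊢
  exact hE _ hy hb

theorem stepB (hq : 3 ≤ Nat.card F) (h : y ∈ V F 1) : y ∈ V F 4 := by
  obtain ⟨u, b, hb, rfl⟩ := splitV h
  obtain ⟨v, c, hc', rfl⟩ := splitV hb
  have key : ∀ t : F, t ≠ 0 → t * u + v = 0 := fun t ht => by
    have h1 := comm7 hN hy t
    rw [cmul, cmul, fix7 hc', cj (1 + 7) 7, cj (1 + 1 + 7) 7] at h1
    simp only [ct, List.map, wordVal_cons, wordVal_nil, mul_one, pow_one] at h1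
    generalize ((-2 : ℤ) : F) * -t * u = α at h1
    generalize ((3 : ℤ) : F) * -t * u ^ 2 = γ at h1
    have h2 : x 9 α * (x 10 (((-3 : ℤ) : F) * (-t) ^ 2 * u) * x 11 γ) ∈ V F 2 :=
      mul_mem (x_mem _) (mul_mem (x_mem _) (x_mem _))
    have h4 : x 10 (((3 : ℤ) : F) * -t * v) ∈ V F 2 := x_mem _
    rw [(commV (x_mem (k := 1 + 1 + 7) (n := 2) v) h4).eq, mul_assoc (x 10 (_ * v)), ← mul_assoc (x (1 + 7) u * _),
      mul_assoc (x (1 + 7) u), cancel (commV (mul_mem h2 h4) hb)] at h1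
    have h5 := stepA h3 hN hE h1 (mul_mem h2 h4)
    rw [mul_assoc, mul_assoc, (cm 11 10 _ _).eq, ← mul_assoc (x 10 _), xG_add] at h5
    obtain rfl := zero_of ((Subgroup.mul_mem_cancel_right _ (mul_mem (x_mem (k := 10) (n := 3) _)
      (x_mem (k := 11) (n := 3) _))).1 (V_mono h5))
    rw [x0, one_mul] at h5
    have h6 := zero_of ((Subgroup.mul_mem_cancel_right _ (x_mem (k := 11) (n := 4) _)).1 h5)
    refine mul_left_cancel₀ (mul_ne_zero h3 ht) ?_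
    push_cast at h6
    linear_combination -h6
  obtain ⟨t, h1, h2⟩ := exists_ne hq
  obtain rfl : u = 0 := mul_left_cancel₀ (sub_ne_zero.2 h2) (by
    linear_combination key t h1 - key 1 one_ne_zero)
  rw [x0, one_mul] at hy ⊢
  exact stepA h3 hN hE hy hb

theorem stepC (hq : 3 ≤ Nat.card F) (hQ : y ∈ (PG chevG2 F).UJ {⟨1, by decide⟩}ᶜ) : y ∈ V F 4 := by
  obtain ⟨u, b, hb, rfl⟩ := splitQ hQ
  have h1 := comm7 hN hy 1
  rw [cmul, cj 6 7] at h1
  simp only [ct, List.map, wordVal_cons, wordVal_nil, mul_one, pow_one, Int.cast_neg, Int.cast_one, neg_mul, mul_neg,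
    neg_neg, one_mul] at h1
  have h2 : x 9 ((-1) ^ 2 * u) * (x 10 ((-1) ^ 3 * u) * x 11 ((-1) ^ 3 * u ^ 2)) ∈ V F 2 :=
    mul_mem (x_mem _) (mul_mem (x_mem _) (x_mem _))
  generalize x 9 ((-1) ^ 2 * u) * (x 10 ((-1) ^ 3 * u) * x 11 ((-1) ^ 3 * u ^ 2)) = w at h1 h2
  have h4 : (x 7 (1 : F))⁻¹ * b * (x 7 (1 : F))⁻¹⁻¹ * b⁻¹ ∈ V F 2 :=
    VH_mono (by norm_num) (comm_VH (U_le_VH (inv_mem (x_mem_U (k := 7) 1))) hb)
  have h8 : x 8 u ∈ V F 1 := x_mem _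
  generalize x 7 (1 : F) = g at h1 h4
  rw [show (x 6 u * b)⁻¹ * (x 6 u * (x 8 u * w) * (g⁻¹ * b * g)) = b⁻¹ * (x 8 u * w * (g⁻¹ * b * g⁻¹⁻¹ * b⁻¹)) * b by
    group] at h1
  generalize g⁻¹ * b * g⁻¹⁻¹ * b⁻¹ = c at h1 h4
  have h5 := nz_VH _ b ((PG chevG2 F).U_le_B (VH_le_U _ hb)) _ (V_mono (m := 2) (stepB h3 hN hE h1 hq
    (mul_mem (mul_mem (inv_mem hb) (mul_mem (mul_mem h8 (V_mono h2)) (V_mono h4))) hb)))
  rw [show b * (b⁻¹ * (x 8 u * w * c) * b) * b⁻¹ = x 8 u * (w * c) by group] at h5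
  obtain rfl : u = 0 := zero_of (n := 2) ((Subgroup.mul_mem_cancel_right _ (mul_mem h2 h4)).1 h5)
  rw [x0, one_mul] at hy ⊢
  exact stepB h3 hN hE hy hq hb

end descend

section action
variable {Ω : Type*} [Finite Ω] [Nontrivial Ω] [MulAction (chevG2.group F) Ω] [FaithfulSMul (chevG2.group F) Ω]
  (p : ℕ) [Fact p.Prime] [CharP F p]
include p

theorem semi3 (hB : Trs Ω (PG chevG2 F).B) : Semi Ω (V F 3) := semi_of_fx fun _ hy h1 =>
  (fx_conj (conj3 hy h1)).trans (fx_line hB (nz_VH _) (nz_VH _) ((isPGroup_U p).to_le (VH_le_U _))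
    ((isPGroup_U p).to_le (VH_le_U _)) ((card_V (n := 4)).trans (pow_one _)) (card_V (n := 3)) Finite.one_lt_card
    (by simp [xG_eq_one_iff (D := chevG2) (show 11 < 12 by decide)]) (fun _ hx => conj3 (V_mono hx)) fun _ => conj3)

theorem deg (h2 : Two (chevG2.group F) Ω) (hB : Trs Ω (PG chevG2 F).B) : Nat.card Ω = Nat.card F ^ 3 := by
  obtain ⟨a⟩ := (inferInstance : Nonempty Ω)
  have h1 := semi3 p hB
  obtain ⟨l, hl⟩ := h2.exists_lam (hi.nz_Z (P := PG chevG2 F)) (hB.mono ((PG chevG2 F).B_le_PJ _)) a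
  have h3 : ob ((PG chevG2 F).X (rt 11)) a = Nat.card F := ((h1.mono fun y hy => by
    obtain ⟨t, rfl⟩ := mem_X_iff.1 hy
    exact x_mem (k := 11) t).ob a).trans (card_X _)
  rw [← ob, h3, index] at hl
  have h4 := ob_dvd_card (nz_VH ((3 : ℕ) : ℤ)) hB a
  rw [h1.ob a, card_V] at h4
  rcases g2_arith Finite.one_lt_card h4 Nat.card_pos hl with e | e | e
  · exact absurd (zero_of ((h1.trs (e.trans (card_V (n := 3)).symm).le).mem_of_comm (fun _ h _ h' => commV h h')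
      (z := x 9 1) fun _ => commV (x_mem (n := 2) 1))) one_ne_zero
  · exact e
  obtain ⟨f, -, hf⟩ := exists_card_eq (F := F) p
  have h5 := trs_or PG_full h2 (trs_U (nondeg chevG2 F) (not_dvd_card_H p) hB (k := f * 6) (by rw [e, hf, pow_mul]))
    (i := ⟨0, by decide⟩) (j := ⟨1, by decide⟩) fun w hw e => by
      have := Aut.len_apply ((rs chevG2).W_le_Aut hw) ((rs chevG2).simple ⟨0, by decide⟩)
      rw [e, rs_len, rs_len, rs_simple_val, rs_simple_val] at this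
      exact absurd this (by decide +kernel)
  have h6 : Nat.card F ^ 5 < Nat.card F ^ 6 := Nat.pow_lt_pow_right Finite.one_lt_card (by decide)
  rcases h5 with h5 | h5 <;> exact absurd (card_UJ (F := F) _ ▸ e ▸ h5.card_le) h6.not_ge

theorem three (h3 : (3 : F) = 0) (hB : Trs Ω (PG chevG2 F).B) (hn : Nat.card Ω = Nat.card F ^ 3) : False := by
  obtain ⟨f, -, hf⟩ := exists_card_eq (F := F) p
  have hU := trs_U (nondeg chevG2 F) (not_dvd_card_H p) hB (k := f * 3) (by rw [hn, hf, pow_mul])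
  have h1 : Semi Ω (V F 2) := semi_of_fx fun y hy h1 => by
    have key : ∀ t v : F, IsConj y (x 9 t * x 11 v) → fx Ω y = 0 := fun t v h => (fx_conj h).trans
      (fx_eq_zero.2 fun a e => h1 (by simpa [hU.eq_one (cent3 h3 t v) e] using h))
    obtain ⟨t, b, hb, rfl⟩ := splitV hy
    obtain ⟨u, v, rfl⟩ := mem3 hb
    by_cases hu : u = 0
    · exact key t v (by rw [hu, x0, one_mul])
    · exact key _ _ (kill hu t v)
  refine one_ne_zero (zero_of ((h1.trs (hn.trans (card_V (n := 2)).symm).le).mem_of_comm (fun _ h _ h' => commV h h')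
    (z := x 8 1) fun y hy => ?_))
  obtain ⟨t, b, hb, rfl⟩ := splitV hy
  refine Commute.mul_right ((commute_iff_eq _ _).2 ?_) (commV (x_mem (n := 1) 1) hb)
  simpa [ct, h3, xG_zero] using swap (r := 8) (s := 9) (by decide) (by decide) (by decide) (1 : F) t

theorem ne_three (hq : 3 ≤ Nat.card F) (h3 : (3 : F) ≠ 0) (hB : Trs Ω (PG chevG2 F).B)
    (hn : Nat.card Ω = Nat.card F ^ 3) : False := by
  obtain ⟨a⟩ := (inferInstance : Nonempty Ω)
  obtain ⟨f, -, hf⟩ := exists_card_eq (F := F) p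
  have hQ : Nat.card ((PG chevG2 F).UJ {⟨1, by decide⟩}ᶜ) = Nat.card F ^ (2 * 2 + 1) := by
    rw [← card_UJ ⟨0, by decide⟩]
    exact congrArg (fun J => Nat.card ((PG chevG2 F).UJ J)) (Set.ext (by decide +kernel))
  have h1 := hi.dvd_ob (p := p) (nondeg chevG2 F) (ld h3) (fun r => ⟨f, (card_X r).trans hf⟩) hB (card_X _) hQ a
  have hT := (trs_iff_ob a).2 (hn ▸ Nat.le_of_dvd (ob_pos _ a) h1)
  have hZ := hi.nz_Z (P := PG chevG2 F)
  have h2 := nz_final (R := ⊥) (a := a) (A := (PG chevG2 F).UJ {⟨1, by decide⟩}ᶜ ⊓ stabilizer _ a) (fun x => by simp)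
    (by simpa using hT) hi.Z_le_Q (fun x hx y hy => hi.comm_Q hx hy) ((PG chevG2 F).UJ_le_PJ _) (nz_bot _) (nz_Q _ _) hZ
  have h4 := ob_mul_st ((PG chevG2 F).UJ {⟨1, by decide⟩}ᶜ) a
  rw [hT.ob_eq, st_eq_one_iff.2 fun y hy e => semi3 p hB y (V_mono (stepC h3 (h2.mono ((PG chevG2 F).U_le_PJ _))
    (fun y hy hE => ?_) (Subgroup.mem_sup_left ⟨hy, e⟩) hq hy)) a e, mul_one, hn, hQ] at h4
  · exact absurd (Nat.pow_right_injective (Finite.one_lt_card (α := F)) h4) (by decide)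
  obtain ⟨u, hu, z, hz, rfl⟩ := (mem_sup_iff_of_le_normalizer
    (inf_le_left.trans (((PG chevG2 F).UJ_le_PJ _).trans hZ.le))).1 hy
  obtain ⟨t, rfl⟩ := mem_X_iff.1 hz
  rw [semi3 p hB u ((Subgroup.mul_mem_cancel_right _ (x_mem (k := 11) t)).1 hE) a hu.2, one_mul]
  exact x_mem (k := 11) t

end action

end G2

open MulAction T2 Chev ChevM _root_.Cfsg.Lie

theorem not_B_G2 {F : Type*} [Field F] [Finite F] (hq : 3 ≤ Nat.card F) {Ω : Type*} [Finite Ω] [Nontrivial Ω]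
    [MulAction (chevG2.group F) Ω] [FaithfulSMul (chevG2.group F) Ω] (h2 : Two (chevG2.group F) Ω) :
    ¬ ∀ a b : Ω, ∃ g ∈ (PG chevG2 F).B, g • a = b := fun hB => by
  obtain ⟨p, _⟩ := CharP.exists F
  have : Fact p.Prime := ⟨CharP.char_is_prime F p⟩
  by_cases h3 : (3 : F) = 0
  · exact G2.three p h3 hB (G2.deg p h2 hB)
  · exact G2.ne_three p hq h3 hB (G2.deg p h2 hB)

end Cfsg.Agent.T2X
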