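import Cfsg.Agent.Lib.T2X.D

/-! Generalities for the rank two case: a Harish-Chandra dichotomy, the height filtration, arithmetic. -/

set_option autoImplicit false
set_option linter.unusedSectionVars false

namespace Cfsg.Agent.T2X

open MulAction Finset T2 Chev RD RSys PreRGD

theorem g2_arith {n l q : ℕ} (hq : 2 ≤ q) (h : q ^ 2 ∣ n) (h0 : 0 < n) (e : (n - 1) * l = q ^ 6 - 1) :
    n = q ^ 2 ∨ n = q ^ 3 ∨ n = q ^ 6 := by
  obtain ⟨m, rfl⟩ := h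
  have h1 : 0 < m := Nat.pos_of_mul_pos_left h0
  have h2 : 1 ≤ q ^ 6 := Nat.one_le_pow _ _ (by omega)
  zify [h0, h2] at e
  have hQ : (4 : ℤ) ≤ q ^ 2 := by nlinarith
  have hq' : (2 : ℤ) ≤ q := by exact_mod_cast hq
  have hm : (1 : ℤ) ≤ m := by exact_mod_cast h1
  have hl : (0 : ℤ) ≤ l := by positivity
  obtain ⟨k, hk⟩ : ∃ k : ℤ, k = m * l - q ^ 4 := ⟨_, rfl⟩
  have h3 : (l : ℤ) = 1 + q ^ 2 * k := by rw [hk]; linear_combination -e
  have h4 : 0 ≤ k := by nlinarith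
  obtain ⟨d, hd⟩ : ∃ d : ℤ, d = q ^ 2 - m * k := ⟨_, rfl⟩
  have h5 : m - k = q ^ 2 * d := by rw [hd]; linear_combination -hk - m * h3
  rcases lt_trichotomy d 0 with h6 | h6 | h6
  · left
    have h7 : (m : ℤ) = 1 := by
      by_contra h7
      have h8 : (2 : ℤ) ≤ m := by omega
      have h9 : (q : ℤ) ^ 2 * (-d) ≤ k := by linarith
      have h10 : 2 * k ≤ m * k := by nlinarith
      nlinarith
    obtain rfl : m = 1 := by exact_mod_cast h7
    simp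
  · right; left
    have h7 : k = m := by rw [h6] at h5; linarith
    have h8 : (m : ℤ) = q := by
      rw [h6, h7] at hd
      nlinarith
    obtain rfl : m = q := by exact_mod_cast h8
    ring
  · right; right
    have h7 : k = 0 := by
      by_contra h7
      have h8 : 1 ≤ k := by omega
      have h9 : (m : ℤ) ≤ m * k := by nlinarith
      nlinarith
    have h8 : (m : ℤ) = q ^ 4 := by
      rw [h7] at hd h5
      rw [hd] at h5
      linarith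
    obtain rfl : m = q ^ 4 := by exact_mod_cast h8
    ring

section
variable {G : Type*} [Group G] {Ω : Type*} [MulAction G Ω] {U T A : Subgroup G}

theorem Trs.conj (h : Trs Ω U) {k : G} (hk : ∀ u ∈ U, k * u * k⁻¹ ∈ T) : Trs Ω T := fun a b => by
  obtain ⟨g, hg, e⟩ := h (k⁻¹ • a) (k⁻¹ • b)
  exact ⟨_, hk g hg, by rw [mul_smul, mul_smul, e, smul_inv_smul]⟩

theorem Trs.card_le [Finite G] [Finite Ω] [Nonempty Ω] (h : Trs Ω U) : Nat.card Ω ≤ Nat.card U := by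
  obtain ⟨a⟩ := ‹Nonempty Ω›
  exact h.ob_eq a ▸ Nat.le_of_dvd Nat.card_pos (ob_dvd U a)

theorem Trs.eq_one [FaithfulSMul G Ω] (h : Trs Ω U) {z : G} (hz : ∀ u ∈ U, Commute z u) {a : Ω} (e : z • a = a) :
    z = 1 := eq_of_smul_eq_smul fun b : Ω => by
  obtain ⟨g, hg, rfl⟩ := h a b
  rw [← mul_smul, (hz g hg).eq, mul_smul, e, one_smul]

/-- a transitive abelian group is its own centraliser -/
theorem Trs.mem_of_comm [FaithfulSMul G Ω] [Nonempty Ω] (h : Trs Ω A) (hA : ∀ a ∈ A, ∀ b ∈ A, Commute a b) {z : G}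
    (hz : ∀ u ∈ A, Commute z u) : z ∈ A := by
  obtain ⟨a⟩ := ‹Nonempty Ω›
  obtain ⟨g, hg, e⟩ := h a (z • a)
  have := h.eq_one (z := g⁻¹ * z) (a := a) (fun u hu => (hA g hg u hu).inv_left.mul_left (hz u hu))
    (by rw [mul_smul, ← e, inv_smul_smul])
  exact inv_mul_eq_one.1 this ▸ hg

theorem Semi.trs [Finite G] [Finite Ω] [Nonempty Ω] (h : Semi Ω A) (hn : Nat.card Ω ≤ Nat.card A) : Trs Ω A := by
  obtain ⟨a⟩ := ‹Nonempty Ω›
  exact (trs_iff_ob a).2 (h.ob a ▸ hn)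

end

variable {ι I : Type*} [Fintype I] [DecidableEq I] [Fintype ι] [DecidableEq ι] {R : RSys ι I}
  {G : Type*} [Group G] [Finite G] {P : PreRGD R G} {Ω : Type*} [MulAction G Ω] [Finite Ω]

theorem trs_or (hf : P.full = ⊤) (h2 : Two G Ω) (hU : Trs Ω P.U) {i j : I}
    (hij : ∀ w ∈ R.W, w (R.simple i) ≠ R.simple j) : Trs Ω (P.UJ {i}) ∨ Trs Ω (P.UJ {j}) := by
  refine hc_or h2 fun g => ?_
  obtain ⟨w, hw, b, hb, b', hb', rfl⟩ := P.mem_full_iff.1 (hf ▸ Subgroup.mem_top g)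
  obtain ⟨r, k, h1, h3, h4, h5⟩ : ∃ r k, R.InSub {i} r ∧ k ∈ P.PJ {i} ∧ (R.IsPos (w⁻¹ r) ∧ w⁻¹ r ≠ R.simple j) ∧
      ∀ x ∈ P.X (R.simple i), k * x * k⁻¹ ∈ P.X r := by
    by_cases e : R.IsPos (w⁻¹ (R.simple i))
    · exact ⟨_, 1, inSub_singleton_iff.2 (Or.inl rfl), one_mem _, ⟨e, hij _ (inv_mem hw)⟩, fun x hx => by simpa using hx⟩
    · refine ⟨_, P.n i, inSub_singleton_iff.2 (Or.inr rfl), P.NJ_le_PJ _ (P.n_mem_NJ rfl), ⟨?_, ?_⟩,
        fun x hx => R.sref_simple i ▸ P.n_conj_X i _ x hx⟩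
      · rwa [Aut.neg_apply (R.W_le_Aut (inv_mem hw)), isPos_neg_iff]
      · simpa [R.sref_simple] using hij _ (mul_mem (inv_mem hw) (R.sref_mem_W i))
  have hb1 := P.B_le_PJ {i} hb
  refine ⟨(P.X r).map (MulAut.conj b).toMonoidHom, ?_, ?_, hU.conj (k := b * k) fun u hu => ?_⟩
  · rintro _ ⟨x, hx, rfl⟩
    have := (nz_Q P {j}).inv (P.B_le_PJ _ hb') (mem_USub (S := {r | R.IsPos r ∧ ¬ R.InSub {j} r})
      (pos_not_inSub_singleton.2 h4) (P.nW_inv_conj_X hw r hx))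
    simpa [mul_assoc] using this
  · refine (nz_Q P {i}).mono ?_
    rintro _ ⟨x, hx, rfl⟩
    exact mul_mem (mul_mem hb1 (P.X_le_PJ h1 hx)) (inv_mem hb1)
  · obtain ⟨v, hv, x, hx, rfl⟩ := P.exists_UJ_mul_X i hu
    have := mul_mem (Subgroup.mem_sup_left (T := (P.X r).map (MulAut.conj b).toMonoidHom)
      (nz_Q P {i} _ (mul_mem hb1 h3) v hv)) (Subgroup.mem_sup_right ⟨_, h5 x hx, rfl⟩)
    simpa [mul_assoc] using this

variable (P) in
/-- the height filtration -/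
def VH (n : ℤ) : Subgroup G := P.US {r | R.IsPos r ∧ n < R.ht r}

theorem nz_VH (n : ℤ) : Nz P.B (VH P n) := nz_B_US (ideal_ht_gt n) fun _ h => h.1

theorem VH_le_U (n : ℤ) : VH P n ≤ P.U := USub_mono fun _ h => h.1

theorem VH_mono {m n : ℤ} (h : m ≤ n) : VH P n ≤ VH P m := USub_mono fun _ hr => ⟨hr.1, h.trans_lt hr.2⟩

theorem U_le_VH : P.U ≤ VH P 0 := USub_mono fun _ h => ⟨h, IsPos.ht_pos h⟩

theorem comm_VH {m n : ℤ} {x y : G} (hx : x ∈ VH P m) (hy : y ∈ VH P n) : x * y * x⁻¹ * y⁻¹ ∈ VH P (m + n + 1) :=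
  comm_mem ((nz_VH _).mono ((VH_le_U m).trans P.U_le_B)) ((nz_VH _).mono ((VH_le_U n).trans P.U_le_B))
    (fun r hr s hs => ⟨ne_neg_of_pos hs.1 hr.1, fun k hk => by
      have h1 := ht_lt_of_intv hr.1 hs.1 hk
      have h2 := hr.1.ht_pos
      have h3 := hs.1.ht_pos
      have h4 := hr.2
      have h5 := hs.2
      exact le_USub (S := {r | R.IsPos r ∧ m + n + 1 < R.ht r}) ⟨isPos_iff_ht.2 (by omega), by omega⟩⟩) hx hy

theorem split_VH {n : ℤ} {β : ι} (hβ : R.IsPos β ∧ n < R.ht β)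
    (h : ∀ s, R.IsPos s → n < R.ht s → s ≠ β → n + 1 < R.ht s) {y : G} (hy : y ∈ VH P n) :
    ∃ a ∈ P.X β, ∃ b ∈ VH P (n + 1), y = a * b := by
  obtain ⟨a, ha, b, hb, e⟩ := split (fun _ h => h.1) ((ideal_ht_gt n).closed fun _ h => h.1) hβ hy
  exact ⟨a, ha, b, US_mono hb fun s hs => ⟨hs.1.1, h s hs.1.1 hs.1.2 hs.2⟩, e⟩

theorem eq_one_of_VH (hP : P.Nondeg) {n : ℤ} {β : ι} (hβ : R.IsPos β) (h : R.ht β ≤ n) {x : G} (hx : x ∈ P.X β)
    (hx' : x ∈ VH P n) : x = 1 :=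
  hP.eq_one_of_mem_X_US hβ (fun _ h => h.1) ((ideal_ht_gt n).closed fun _ h => h.1) (fun e => e.2.not_ge h) hx hx'

end Cfsg.Agent.T2X
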